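import Cfsg.Agent.H221.PPMain
import Cfsg.Agent.H74.Base

/-!
# Irreducible subgroups of `SL(V)` have large index, 1: the numerical part (helper110)
-/

set_option autoImplicit false

namespace Cfsg.Agent.H110.Gap

open Module hiding ext'
open MulAction Cfsg.Agent.H221.PP

section Gen

/-- the index of a subgroup, its image and its intersection with the kernel -/
theorem index_image {A B : Type*} [Group A] [Group B] [Finite A] {f : A →* B} (hf : Function.Surjective f)
    (T : Subgroup A) : (T.map f).index * T.relIndex f.ker ≤ T.index := by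
  have h1 := Subgroup.relIndex_mul_index (H := T) (K := T ⊔ f.ker) le_sup_left
  have h2 : (T.map f).index = (T ⊔ f.ker).index := by
    rw [Subgroup.index_map, MonoidHom.range_eq_top.2 hf, Subgroup.index_top, mul_one]
  rw [h2, ← h1, mul_comm]
  exact Nat.mul_le_mul_right _ (Subgroup.relIndex_le_of_le_right le_sup_right Subgroup.index_ne_zero_of_finite)

/-- the orbit of a subgroup inside a finite set -/
theorem index_orbit {B X : Type*} [Group B] [Finite B] [MulAction B X] (S : Subgroup B) (x : X) {D : Set X}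
    (hD : ∀ s ∈ S, s • x ∈ D) (hfin : D.Finite) :
    Nat.card (orbit B x) * S.relIndex (stabilizer B x) ≤ S.index * D.ncard := by
  have h1 : (S ⊓ stabilizer B x).relIndex (stabilizer B x) * (stabilizer B x).index =
      (S ⊓ stabilizer B x).index := Subgroup.relIndex_mul_index inf_le_right
  have h2 : (S ⊓ stabilizer B x).relIndex S * S.index = (S ⊓ stabilizer B x).index :=
    Subgroup.relIndex_mul_index inf_le_left
  rw [Subgroup.inf_relIndex_right, index_stabilizer] at h1
  rw [Subgroup.inf_relIndex_left] at h2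
  have h3 : (stabilizer B x).relIndex S ≤ D.ncard := by
    have h4 : (stabilizer B x).subgroupOf S = stabilizer S x := by
      ext s
      rfl
    rw [Subgroup.relIndex, h4, index_stabilizer]
    refine Set.ncard_le_ncard ?_ hfin
    rintro _ ⟨s, rfl⟩
    exact hD s s.2
  change Nat.card (orbit B x) * _ ≤ _
  rw [Nat.card_coe_set_eq, mul_comm, h1, ← h2, mul_comm]
  exact Nat.mul_le_mul_left _ h3

theorem relIndex_stab_le {B : Type*} [Group B] [Finite B] (H K : Subgroup B) : H.relIndex K ≤ H.index := by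
  rw [← Subgroup.relIndex_top_right]
  exact Subgroup.relIndex_le_of_le_right le_top Subgroup.index_ne_zero_of_finite

end Gen

section Quo

variable {F : Type*} [Field F] {V : Type*} [AddCommGroup V] [Module F V]

theorem tq_aux {u : V} (ψ : Dual F (V ⧸ ln F u)) : (ψ ∘ₗ (ln F u).mkQ) u = 0 := by
  rw [LinearMap.comp_apply, mkQ_self, map_zero]

/-- the transvection with centre `u` and functional `ψ` on `V / u` -/
def tq (u : V) (ψ : Dual F (V ⧸ ln F u)) : SpecialLinearGroup F V := tv (ψ ∘ₗ (ln F u).mkQ) u (tq_aux ψ)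

theorem tq_app (u : V) (ψ : Dual F (V ⧸ ln F u)) (x : V) : tq u ψ x = x + ψ ((ln F u).mkQ x) • u := by
  rw [tq, tv_apply]
  rfl

theorem tq_self (u : V) (ψ : Dual F (V ⧸ ln F u)) : tq u ψ u = u := by
  rw [tq_app, mkQ_self, map_zero, zero_smul, add_zero]

theorem tq_add (u : V) (ψ ψ' : Dual F (V ⧸ ln F u)) : tq u (ψ + ψ') = tq u ψ * tq u ψ' := by
  apply ext'
  intro x
  rw [mul_app, tq_app, tq_app, tq_app, LinearMap.add_apply, map_add, map_smul, mkQ_self, smul_zero, add_zero,
    add_smul, add_assoc, add_comm (ψ' _ • u)]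

theorem tq_zero (u : V) : tq u (0 : Dual F (V ⧸ ln F u)) = 1 := by
  apply ext'
  intro x
  rw [tq_app, LinearMap.zero_apply, zero_smul, add_zero, one_app]

theorem tq_neg (u : V) (ψ : Dual F (V ⧸ ln F u)) : tq u (-ψ) = (tq u ψ)⁻¹ := by
  rw [eq_inv_iff_mul_eq_one, ← tq_add, neg_add_cancel, tq_zero]

/-- every transvection with centre `u` is a `tq` -/
theorem tv_eq_tq {u : V} {φ : Dual F V} (h : φ u = 0) :
    ∃ ψ : Dual F (V ⧸ ln F u), tv φ u h = tq u ψ ∧ ∀ x, ψ ((ln F u).mkQ x) = φ x := by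
  have hle : ln F u ≤ LinearMap.ker φ := by
    rw [Submodule.span_singleton_le_iff_mem]
    exact h
  refine ⟨(ln F u).liftQ φ hle, ?_, fun x => ?_⟩
  · apply ext'
    intro x
    rw [tv_apply, tq_app, Submodule.mkQ_apply, Submodule.liftQ_apply]
  · rw [Submodule.mkQ_apply, Submodule.liftQ_apply]

/-- conjugation -/
theorem conj_tq {u u' : V} {ψ : Dual F (V ⧸ ln F u)} {ψ' : Dual F (V ⧸ ln F u')} {g : SpecialLinearGroup F V}
    (hu : g u = u') (h : ∀ x, ψ' ((ln F u').mkQ (g x)) = ψ ((ln F u).mkQ x)) :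
    g * tq u ψ * g⁻¹ = tq u' ψ' := conj_tv g (fun x => h x) hu

/-- the functionals on `V / u` whose transvection with centre `u` lies in `H` -/
def Pb (H : Subgroup (SpecialLinearGroup F V)) (u : V) : AddSubgroup (Dual F (V ⧸ ln F u)) where
  carrier := {ψ | tq u ψ ∈ H}
  zero_mem' := by
    rw [Set.mem_ofPred_eq, tq_zero]
    exact one_mem _
  add_mem' := by
    intro a b ha hb
    rw [Set.mem_ofPred_eq] at *
    rw [tq_add]
    exact mul_mem ha hb
  neg_mem' := by
    intro a ha
    rw [Set.mem_ofPred_eq] at *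
    rw [tq_neg]
    exact inv_mem ha

theorem mem_Pb {H : Subgroup (SpecialLinearGroup F V)} {u : V} {ψ : Dual F (V ⧸ ln F u)} :
    ψ ∈ Pb H u ↔ tq u ψ ∈ H := Iff.rfl

variable {p : ℕ} (τ : F →+ ZMod p)

/-- the annihilator of `Pb H u` in `V / u` -/
def Db (H : Subgroup (SpecialLinearGroup F V)) (u : V) : Set (V ⧸ ln F u) := {w | ∀ ψ ∈ Pb H u, τ (ψ w) = 0}

variable {τ}

theorem mem_Db {H : Subgroup (SpecialLinearGroup F V)} {u : V} {w : V ⧸ ln F u} :
    w ∈ Db τ H u ↔ ∀ ψ ∈ Pb H u, τ (ψ w) = 0 := Iff.rfl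

variable [FiniteDimensional F V]

/-- `Db` is invariant -/
theorem img_Db {H : Subgroup (SpecialLinearGroup F V)} {u : V} {w : V ⧸ ln F u} (hw : w ∈ Db τ H u)
    {g : SpecialLinearGroup F (V ⧸ ln F u)} (hg : g ∈ img H u) : g w ∈ Db τ H u := by
  rw [mem_img] at hg
  obtain ⟨h, hh, hu, e⟩ := hg
  obtain ⟨w, rfl⟩ := (ln F u).mkQ_surjective w
  intro ψ hψ
  -- the functional ψ ∘ g
  have h1 : tq u (ψ ∘ₗ ((g : (V ⧸ ln F u) ≃ₗ[F] (V ⧸ ln F u)) : (V ⧸ ln F u) →ₗ[F] (V ⧸ ln F u))) ∈ H := by
    have h2 : h⁻¹ * tq u ψ * (h⁻¹)⁻¹ =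
        tq u (ψ ∘ₗ ((g : (V ⧸ ln F u) ≃ₗ[F] (V ⧸ ln F u)) : (V ⧸ ln F u) →ₗ[F] (V ⧸ ln F u))) := by
      apply conj_tq
      · apply app_inj h
        rw [app_inv_app, hu]
      · intro x
        change ψ (g ((ln F u).mkQ (h⁻¹ x))) = ψ ((ln F u).mkQ x)
        rw [← e, app_inv_app]
    rw [← h2]
    exact mul_mem (mul_mem (inv_mem hh) hψ) (inv_mem (inv_mem hh))
  exact hw _ h1

variable [Finite F] [Fact p.Prime] [CharP F p]

theorem dual_fin : Finite (Dual F V) := by
  have := finite_vec (F := F) V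
  exact DFunLike.finite _

/-- duality -/
theorem ann (hτ : ∀ c : F, (∀ x, τ (c * x) = 0) → c = 0) (U : AddSubgroup (Dual F V)) :
    {x : V | ∀ s ∈ U, τ (s x) = 0}.ncard * Nat.card U = Nat.card V ∧
      ∀ w : Dual F V, (∀ x, (∀ s ∈ U, τ (s x) = 0) → τ (w x) = 0) → w ∈ U := by
  have : Finite (Dual F V) := dual_fin
  have := finite_vec (F := F) V
  have hp : ∀ c : F, p • c = 0 := fun c => by rw [nsmul_eq_mul, CharP.cast_eq_zero, zero_mul]
  let β : Dual F V →+ V →+ ZMod p :=
    AddMonoidHom.mk' (fun f => τ.comp f.toAddMonoidHom) (by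
      intro a b
      ext x
      simp)
  have hβ : ∀ w x, β w x = τ (w x) := fun _ _ => rfl
  have key := Cfsg.Agent.H74.dual_card (V := V) (W := Dual F V) (p := p)
    (fun x => by
      have : ((p : F)) • x = 0 := by rw [CharP.cast_eq_zero, zero_smul]
      rwa [Nat.cast_smul_eq_nsmul] at this) (fun f => by
      apply LinearMap.ext
      intro x
      rw [LinearMap.smul_apply]
      simp [hp]) β (by
        intro w hw
        apply LinearMap.ext
        intro x
        refine hτ _ fun y => ?_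
        have := hw (y • x)
        rw [hβ, map_smul, smul_eq_mul, mul_comm] at this
        exact this) U
  simp only [hβ] at key
  exact key

theorem card_Db (hτ : ∀ c : F, (∀ x, τ (c * x) = 0) → c = 0) (H : Subgroup (SpecialLinearGroup F V)) (u : V) :
    (Db τ H u).ncard * Nat.card (Pb H u) = Nat.card (V ⧸ ln F u) := (ann hτ (Pb H u)).1

theorem mem_Pb_of (hτ : ∀ c : F, (∀ x, τ (c * x) = 0) → c = 0) {H : Subgroup (SpecialLinearGroup F V)} {u : V}
    {ψ : Dual F (V ⧸ ln F u)} (h : ∀ w ∈ Db τ H u, τ (ψ w) = 0) : ψ ∈ Pb H u := (ann hτ (Pb H u)).2 _ h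

/-- the intersection of `H` with the group of transvections with centre `u` -/
theorem relIndex_ker (hτ : ∀ c : F, (∀ x, τ (c * x) = 0) → c = 0) (H : Subgroup (SpecialLinearGroup F V)) {u : V}
    (hu : u ≠ 0) :
    (H.subgroupOf (stabilizer (SpecialLinearGroup F V) u)).relIndex (down u).ker = (Db τ H u).ncard := by
  have : Finite (SpecialLinearGroup F V) := finite_SL (F := F) V
  have : Finite (Dual F (V ⧸ ln F u)) := dual_fin
  have hD := card_Db hτ H u
  have hk := card_ker_down (F := F) hu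
  have hq := finrank_quo (F := F) hu
  have hV : Nat.card (V ⧸ ln F u) * Nat.card F = Nat.card V := by
    rw [Module.natCard_eq_pow_finrank (K := F), Module.natCard_eq_pow_finrank (K := F) (V := V), ← pow_succ, hq]
  have hF : 0 < Nat.card F := Nat.card_pos
  have hk' : Nat.card (down (F := F) u).ker = Nat.card (V ⧸ ln F u) := by
    rw [← hV] at hk
    exact Nat.eq_of_mul_eq_mul_right hF hk
  have h1 : Nat.card ((H.subgroupOf (stabilizer (SpecialLinearGroup F V) u)).subgroupOf (down (F := F) u).ker) =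
      Nat.card (Pb H u) := by
    refine (Nat.card_congr (Equiv.ofBijective (fun ψ : Pb H u =>
      (⟨⟨⟨tq u (ψ : Dual F (V ⧸ ln F u)), tq_self u (ψ : Dual F (V ⧸ ln F u))⟩, by
        rw [MonoidHom.mem_ker]
        apply ext'
        intro x
        obtain ⟨x, rfl⟩ := (ln F u).mkQ_surjective x
        rw [down_apply, one_app]
        change (ln F u).mkQ (tq u (ψ : Dual F (V ⧸ ln F u)) x) = _
        rw [tq_app, map_add, map_smul, mkQ_self, smul_zero, add_zero]⟩, ψ.2⟩ :
        (H.subgroupOf (stabilizer (SpecialLinearGroup F V) u)).subgroupOf (down (F := F) u).ker)) ⟨?_, ?_⟩)).symm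
    · rintro ⟨ψ, h⟩ ⟨ψ', h'⟩ e
      have e2 : tq u ψ = tq u ψ' := congrArg (fun g => (g.1.1.1 : SpecialLinearGroup F V)) e
      apply Subtype.ext
      apply LinearMap.ext
      intro x
      obtain ⟨x, rfl⟩ := (ln F u).mkQ_surjective x
      have e3 : tq u ψ x = tq u ψ' x := by rw [e2]
      rw [tq_app, tq_app] at e3
      have e4 := add_left_cancel e3
      have e5 : (ψ ((ln F u).mkQ x) - ψ' ((ln F u).mkQ x)) • u = 0 := by rw [sub_smul, e4, sub_self]
      rcases smul_eq_zero.1 e5 with h | h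
      · exact sub_eq_zero.1 h
      · exact absurd h hu
    · rintro ⟨⟨⟨g, hg⟩, hg2⟩, hg3⟩
      obtain ⟨f, hf, e⟩ := eq_tv (v := u) (g := g) hg (by
        intro x
        rw [MonoidHom.mem_ker] at hg2
        rw [← down_apply u ⟨g, hg⟩, hg2, one_app])
      obtain ⟨ψ, e2, -⟩ := tv_eq_tq hf
      refine ⟨⟨ψ, ?_⟩, ?_⟩
      · rw [mem_Pb, ← e2, ← e]
        exact hg3
      · apply Subtype.ext
        apply Subtype.ext
        apply Subtype.ext
        change tq u ψ = g
        rw [e, e2]
  have h2 := Subgroup.index_mul_card ((H.subgroupOf (stabilizer (SpecialLinearGroup F V) u)).subgroupOf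
    (down (F := F) u).ker)
  rw [h1, hk', ← hD] at h2
  exact Nat.eq_of_mul_eq_mul_right Nat.card_pos h2

/-- **the numerical bound** -/
theorem num (hτ : ∀ c : F, (∀ x, τ (c * x) = 0) → c = 0) (hd : 3 ≤ finrank F V)
    (H : Subgroup (SpecialLinearGroup F V)) {u : V} (hu : u ≠ 0) {w : V ⧸ ln F u} (hw : w ≠ 0)
    (hwD : w ∈ Db τ H u) :
    (Nat.card F ^ (finrank F V - 1) - 1) *
      (img H u).relIndex (stabilizer (SpecialLinearGroup F (V ⧸ ln F u)) w) ≤ H.index := by
  have : Finite (SpecialLinearGroup F V) := finite_SL (F := F) V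
  have : Finite (SpecialLinearGroup F (V ⧸ ln F u)) := finite_SL (F := F) _
  have := finite_vec (F := F) (V ⧸ ln F u)
  have hq := finrank_quo (F := F) hu
  have h1 := index_orbit (img H u) w (D := Db τ H u) (fun s hs => img_Db hwD hs) (Set.toFinite _)
  have h2 : Nat.card (orbit (SpecialLinearGroup F (V ⧸ ln F u)) w) = Nat.card F ^ (finrank F V - 1) - 1 := by
    rw [orbit_eq (by omega) hw]
    have h3 := card_ne_zero_add (F := F) (V ⧸ ln F u)
    rw [Module.natCard_eq_pow_finrank (K := F) (V := V ⧸ ln F u)] at h3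
    have h4 : finrank F (V ⧸ ln F u) = finrank F V - 1 := by omega
    rw [h4] at h3
    change Nat.card {x : V ⧸ ln F u // x ≠ 0} = _
    omega
  rw [h2] at h1
  refine h1.trans ?_
  rw [← relIndex_ker hτ H hu]
  have h5 := index_image (down_surjective (F := F) u) (H.subgroupOf (stabilizer (SpecialLinearGroup F V) u))
  exact h5.trans (relIndex_stab_le H _)

end Quo

end Cfsg.Agent.H110.Gap
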