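import Cfsg.Agent.H110.Fpr.GapA

/-!
# Irreducible subgroups of `SL(V)` have large index, 2: the structural part (helper110)
-/

set_option autoImplicit false

namespace Cfsg.Agent.H110.Gap

open Module hiding ext'
open MulAction Cfsg.Agent.H221.PP

section Lin

variable {F : Type*} [Field F] {V : Type*} [AddCommGroup V] [Module F V]

/-- two proper subspaces do not cover -/
theorem exists_notMem_two {A B : Submodule F V} (hA : A ≠ ⊤) (hB : B ≠ ⊤) : ∃ z, z ∉ A ∧ z ∉ B := by
  obtain ⟨a, ha⟩ : ∃ a, a ∉ A := by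
    by_contra h
    push Not at h
    exact hA (eq_top_iff.2 fun x _ => h x)
  obtain ⟨b, hb⟩ : ∃ b, b ∉ B := by
    by_contra h
    push Not at h
    exact hB (eq_top_iff.2 fun x _ => h x)
  by_cases h1 : a ∈ B
  · by_cases h2 : b ∈ A
    · refine ⟨a + b, fun h => ha ?_, fun h => hb ?_⟩
      · have := A.sub_mem h h2
        rwa [add_sub_cancel_right] at this
      · have := B.sub_mem h h1
        rwa [add_sub_cancel_left] at this
    · exact ⟨b, h2, hb⟩
  · exact ⟨a, ha, h1⟩

theorem mem_sup_ln {U : Submodule F V} {x y : V} : y ∈ U ⊔ ln F x ↔ ∃ a ∈ U, ∃ c : F, y = a + c • x := by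
  rw [Submodule.mem_sup]
  constructor
  · rintro ⟨a, ha, b, hb, rfl⟩
    obtain ⟨c, rfl⟩ := Submodule.mem_span_singleton.1 hb
    exact ⟨a, ha, c, rfl⟩
  · rintro ⟨a, ha, c, rfl⟩
    exact ⟨a, ha, _, Submodule.smul_mem _ c (Submodule.mem_span_singleton_self x), rfl⟩

theorem fix_aux {U : Submodule F V} {x y : V} (hx : x ∉ U) (hy : y ∉ U ⊔ ln F x) :
    ∃ g : SpecialLinearGroup F V, (∀ z ∈ U, g z = z) ∧ g x = y := by
  have hx' : x ∉ U ⊔ ln F y := by
    intro h
    obtain ⟨a, ha, c, e⟩ := mem_sup_ln.1 h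
    have hc : c ≠ 0 := by
      rintro rfl
      rw [zero_smul, add_zero] at e
      exact hx (e ▸ ha)
    apply hy
    rw [mem_sup_ln]
    refine ⟨-(c⁻¹ • a), U.neg_mem (U.smul_mem _ ha), c⁻¹, ?_⟩
    rw [e, smul_add, smul_smul, inv_mul_cancel₀ hc, one_smul]
    abel
  obtain ⟨φ₁, h1, h2⟩ := exists_fun hx'
  obtain ⟨φ₂, h3, h4⟩ := exists_fun hy
  have e1 : φ₁ y = 0 := h2 y (Submodule.mem_sup_right (Submodule.mem_span_singleton_self y))
  have e2 : φ₂ x = 0 := h4 x (Submodule.mem_sup_right (Submodule.mem_span_singleton_self x))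
  refine ⟨tv (φ₁ + φ₂) (y - x) ?_, fun z hz => ?_, ?_⟩
  · rw [LinearMap.add_apply, map_sub, map_sub, h1, h3, e1, e2]
    ring
  · rw [tv_apply, LinearMap.add_apply, h2 z (Submodule.mem_sup_left hz), h4 z (Submodule.mem_sup_left hz),
      add_zero, zero_smul, add_zero]
  · rw [tv_apply, LinearMap.add_apply, h1, e2, add_zero, one_smul, add_sub_cancel]

/-- the pointwise stabiliser of a subspace is transitive outside of it -/
theorem exists_map_fix [FiniteDimensional F V] {U : Submodule F V} (hU : finrank F U + 2 ≤ finrank F V) {x y : V}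
    (hx : x ∉ U) (hy : y ∉ U) : ∃ g : SpecialLinearGroup F V, (∀ z ∈ U, g z = z) ∧ g x = y := by
  by_cases h : y ∈ U ⊔ ln F x
  · obtain ⟨z, hz⟩ := exists_notMem (W := U ⊔ ln F x) (by
      have h1 := Submodule.finrank_add_le_finrank_add_finrank U (ln F x)
      have h2 : finrank F (ln F x) ≤ 1 := finrank_span_singleton_le' (F := F) x
      omega)
    have hzU : z ∉ U := fun h => hz (Submodule.mem_sup_left h)
    obtain ⟨a, ha, c, e⟩ := mem_sup_ln.1 h
    have hc : c ≠ 0 := by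
      rintro rfl
      rw [zero_smul, add_zero] at e
      exact hy (e ▸ ha)
    have hyz : y ∉ U ⊔ ln F z := by
      intro h'
      obtain ⟨a', ha', d, e'⟩ := mem_sup_ln.1 h'
      have hd : d ≠ 0 := by
        rintro rfl
        rw [zero_smul, add_zero] at e'
        exact hy (e' ▸ ha')
      apply hz
      rw [mem_sup_ln]
      refine ⟨d⁻¹ • (a - a'), U.smul_mem _ (U.sub_mem ha ha'), d⁻¹ * c, ?_⟩
      have e3 : d • z = (a - a') + c • x := by
        have : a' + d • z = a + c • x := by rw [← e', e]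
        rw [← sub_eq_zero] at this ⊢
        rw [← this]
        abel
      rw [← smul_smul, ← smul_add, ← e3, smul_smul, inv_mul_cancel₀ hd, one_smul]
    obtain ⟨g₁, h1, h2⟩ := fix_aux hx hz
    obtain ⟨g₂, h3, h4⟩ := fix_aux hzU hyz
    refine ⟨g₂ * g₁, fun w hw => ?_, ?_⟩
    · rw [mul_app, h1 w hw, h3 w hw]
    · rw [mul_app, h2, h4]
  · exact fix_aux hx h

/-- two vector stabilisers generate -/
theorem two_stab [FiniteDimensional F V] {M : Subgroup (SpecialLinearGroup F V)} {w₁ w₂ : V} (h0 : w₁ ≠ 0)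
    (h12 : w₂ ∉ ln F w₁) (h1 : stabilizer (SpecialLinearGroup F V) w₁ ≤ M)
    (h2 : stabilizer (SpecialLinearGroup F V) w₂ ≤ M) : M = ⊤ := by
  apply eq_top_of_tv
  intro φ x hx
  by_cases e1 : φ w₁ = 0
  · apply h1
    rw [mem_stab, tv_apply, e1, zero_smul, add_zero]
  by_cases e2 : φ w₂ = 0
  · apply h2
    rw [mem_stab, tv_apply, e2, zero_smul, add_zero]
  obtain ⟨θ, t1, t2⟩ := exists_fun_two h0 h12
  have hθ : θ ((φ w₁ / φ w₂) • w₂) = 0 := by rw [map_smul, t2, smul_zero]
  have hg : tv θ ((φ w₁ / φ w₂) • w₂) hθ ∈ M := by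
    apply h2
    rw [mem_stab, tv_apply, t2, zero_smul, add_zero]
  have hφ : ∀ v, (φ - φ w₁ • θ) (tv θ ((φ w₁ / φ w₂) • w₂) hθ v) = φ v := by
    intro v
    simp only [tv_apply, LinearMap.sub_apply, LinearMap.smul_apply, map_add, map_smul, t2, smul_eq_mul, mul_zero,
      sub_zero]
    rw [div_mul_cancel₀ _ e2]
    ring
  have hm : tv (φ - φ w₁ • θ) (tv θ ((φ w₁ / φ w₂) • w₂) hθ x) (by rw [hφ, hx]) ∈ M := by
    apply h1
    have : (φ - φ w₁ • θ) w₁ = 0 := by
      rw [LinearMap.sub_apply, LinearMap.smul_apply, t1, smul_eq_mul, mul_one, sub_self]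
    rw [mem_stab, tv_apply, this, zero_smul, add_zero]
  rw [← conj_tv (tv θ ((φ w₁ / φ w₂) • w₂) hθ) (h := hx) hφ rfl] at hm
  have h3 := M.mul_mem (M.mul_mem (M.inv_mem hg) hm) hg
  have h4 : (tv θ ((φ w₁ / φ w₂) • w₂) hθ)⁻¹ * (tv θ ((φ w₁ / φ w₂) • w₂) hθ * tv φ x hx *
      (tv θ ((φ w₁ / φ w₂) • w₂) hθ)⁻¹) * tv θ ((φ w₁ / φ w₂) • w₂) hθ = tv φ x hx := by group
  rwa [h4] at h3

end Lin

section Bd

variable {F : Type*} [Field F] [Finite F] {V : Type*} [AddCommGroup V] [Module F V] [FiniteDimensional F V]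
variable {p : ℕ} {τ : F →+ ZMod p} [Fact p.Prime] [CharP F p]

/-- the index of a proper subgroup of a vector stabiliser -/
theorem stab_bound (hτ : ∀ c : F, (∀ x, τ (c * x) = 0) → c = 0) (hd : 3 ≤ finrank F V)
    {M : Subgroup (SpecialLinearGroup F V)} {w : V} (hw : w ≠ 0)
    (hM : ¬ stabilizer (SpecialLinearGroup F V) w ≤ M) {i : ℕ} (h1 : i ≤ Nat.card (V ⧸ ln F w))
    (h2 : ∀ S : Subgroup (SpecialLinearGroup F (V ⧸ ln F w)), S ≠ ⊤ → i ≤ S.index) :
    i ≤ M.relIndex (stabilizer (SpecialLinearGroup F V) w) := by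
  have : Finite (SpecialLinearGroup F V) := finite_SL (F := F) V
  have hq := finrank_quo (F := F) hw
  have h3 : (img M w).index * (M.subgroupOf (stabilizer (SpecialLinearGroup F V) w)).relIndex (down w).ker ≤
      M.relIndex (stabilizer (SpecialLinearGroup F V) w) :=
    index_image (down_surjective (F := F) w) (M.subgroupOf (stabilizer (SpecialLinearGroup F V) w))
  by_cases hS : img M w = ⊤
  · by_cases hP : ∃ ψ ∈ Pb M w, ψ ≠ 0
    · exfalso
      obtain ⟨ψ, hψ, hψ0⟩ := hP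
      have hall : ∀ ψ' : Dual F (V ⧸ ln F w), tq w ψ' ∈ M := by
        intro ψ'
        by_cases h0 : ψ' = 0
        · rw [h0, tq_zero]
          exact M.one_mem
        · obtain ⟨g, hg⟩ := exists_map_dual (by omega) hψ0 h0
          have hgS : g ∈ img M w := by rw [hS]; trivial
          rw [mem_img] at hgS
          obtain ⟨h, hh, hhw, e⟩ := hgS
          have h4 : h * tq w ψ * h⁻¹ = tq w ψ' := by
            apply conj_tq hhw
            intro x
            rw [e, hg]
          rw [← h4]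
          exact M.mul_mem (M.mul_mem hh hψ) (M.inv_mem hh)
      apply hM
      intro g hg
      have hgS : down w ⟨g, hg⟩ ∈ img M w := by rw [hS]; trivial
      rw [mem_img] at hgS
      obtain ⟨h, hh, hhw, e⟩ := hgS
      obtain ⟨f, hf, e2⟩ := eq_tv (v := w) (g := g * h⁻¹) (by
        rw [mul_app]
        have : h⁻¹ w = w := by
          apply app_inj h
          rw [app_inv_app, hhw]
        rw [this]
        exact hg) (by
        intro x
        rw [mul_app]
        have h5 := e (h⁻¹ x)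
        rw [app_inv_app, down_apply] at h5
        exact h5.symm)
      obtain ⟨ψ', e3, -⟩ := tv_eq_tq hf
      have h6 : g = tq w ψ' * h := by
        rw [← e3, ← e2]
        group
      rw [h6]
      exact M.mul_mem (hall ψ') hh
    · push Not at hP
      have h4 : Nat.card (Pb M w) = 1 := by
        rw [Nat.card_eq_one_iff_unique]
        constructor
        · constructor
          rintro ⟨a, ha⟩ ⟨b, hb⟩
          apply Subtype.ext
          change a = b
          rw [hP a ha, hP b hb]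
        · exact ⟨0⟩
      have h5 := card_Db hτ M w
      rw [h4, mul_one, ← relIndex_ker hτ M hw] at h5
      rw [h5, hS, Subgroup.index_top, one_mul] at h3
      exact h1.trans h3
  · refine (h2 _ hS).trans (le_trans ?_ h3)
    refine Nat.le_mul_of_pos_right _ ?_
    exact Nat.pos_of_ne_zero Subgroup.index_ne_zero_of_finite

end Bd

section Str

variable {F : Type*} [Field F] {V : Type*} [AddCommGroup V] [Module F V] [FiniteDimensional F V]
variable {H : Subgroup (SpecialLinearGroup F V)}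

/-- `H` acts irreducibly -/
def Irr (H : Subgroup (SpecialLinearGroup F V)) : Prop :=
  ∀ W : Submodule F V, (∀ h ∈ H, ∀ x ∈ W, h x ∈ W) → W = ⊥ ∨ W = ⊤

/-- if all transvections with one centre lie in `H` then `H = SL(V)` -/
theorem top_of_full (hI : Irr H) {u : V} (hu : u ≠ 0) (h : ∀ (φ : Dual F V) (hφ : φ u = 0), tv φ u hφ ∈ H) :
    H = ⊤ := by
  let W : Submodule F V :=
    { carrier := {w | ∀ (φ : Dual F V) (hφ : φ w = 0), tv φ w hφ ∈ H}
      zero_mem' := by
        intro φ hφ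
        rw [tv_eq_one (Or.inr rfl)]
        exact H.one_mem
      add_mem' := by
        intro w w' hw hw'
        rw [Set.mem_ofPred_eq] at *
        intro φ hφ
        by_cases hc : w' ∈ ln F w
        · obtain ⟨c, rfl⟩ := Submodule.mem_span_singleton.1 hc
          have h1 : tv φ (w + c • w) hφ = tv ((1 + c) • φ) w (by
              rw [LinearMap.smul_apply, ← map_smul, add_smul, one_smul]
              exact hφ) := by
            apply ext'
            intro x
            rw [tv_apply, tv_apply, LinearMap.smul_apply, smul_eq_mul, mul_comm, mul_smul, add_smul, one_smul]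
          rw [h1]
          exact hw _ _
        · by_cases hw0 : w = 0
          · subst hw0
            have h1 : tv φ (0 + w') hφ = tv φ w' (by rw [zero_add] at hφ; exact hφ) := tv_congr rfl (zero_add _)
            rw [h1]
            exact hw' _ _
          have hc' : w ∉ ln F w' := by
            intro h'
            obtain ⟨c, e⟩ := Submodule.mem_span_singleton.1 h'
            have hc0 : c ≠ 0 := by
              rintro rfl
              rw [zero_smul] at e
              exact hw0 e.symm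
            exact hc (Submodule.mem_span_singleton.2 ⟨c⁻¹, by rw [← e, smul_smul, inv_mul_cancel₀ hc0, one_smul]⟩)
          have hw'0 : w' ≠ 0 := by
            rintro rfl
            exact hc (Submodule.zero_mem _)
          obtain ⟨θ, t1, t2⟩ := exists_fun_two hw'0 hc'
          have hg := hw θ t2
          have e : tv θ w t2 w' = w + w' := by rw [tv_apply, t1, one_smul, add_comm]
          have hφ1 : ∀ x, φ (tv θ w t2 x) = (φ ∘ₗ (((tv θ w t2 : SpecialLinearGroup F V) : V ≃ₗ[F] V) : V →ₗ[F] V)) x :=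
            fun x => rfl
          have hφ2 : (φ ∘ₗ (((tv θ w t2 : SpecialLinearGroup F V) : V ≃ₗ[F] V) : V →ₗ[F] V)) w' = 0 := by
            rw [← hφ1, e, hφ]
          have h3 := conj_tv (tv θ w t2) (h := hφ2) (h' := hφ) hφ1 e
          rw [← h3]
          exact H.mul_mem (H.mul_mem hg (hw' _ hφ2)) (H.inv_mem hg)
      smul_mem' := by
        intro c w hw
        rw [Set.mem_ofPred_eq] at *
        intro φ hφ
        have h1 : tv φ (c • w) hφ = tv (c • φ) w (by rw [LinearMap.smul_apply, ← map_smul]; exact hφ) := by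
          apply ext'
          intro x
          rw [tv_apply, tv_apply, LinearMap.smul_apply, smul_eq_mul, mul_comm, mul_smul]
        rw [h1]
        exact hw _ _ }
  have hmem : ∀ x, x ∈ W ↔ ∀ (φ : Dual F V) (hφ : φ x = 0), tv φ x hφ ∈ H := fun x => Iff.rfl
  have hinv : ∀ h ∈ H, ∀ x ∈ W, h x ∈ W := by
    intro g hg x hx
    rw [hmem] at *
    intro φ hφ
    have hφ1 : ∀ x, φ (g x) = (φ ∘ₗ (((g : SpecialLinearGroup F V) : V ≃ₗ[F] V) : V →ₗ[F] V)) x := fun x => rfl
    have hφ2 : (φ ∘ₗ (((g : SpecialLinearGroup F V) : V ≃ₗ[F] V) : V →ₗ[F] V)) x = 0 := by rw [← hφ1, hφ]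
    rw [← conj_tv g (h := hφ2) (h' := hφ) hφ1 rfl]
    exact H.mul_mem (H.mul_mem hg (hx _ hφ2)) (H.inv_mem hg)
  rcases hI W hinv with h0 | h0
  · exfalso
    apply hu
    have : u ∈ W := (hmem u).2 h
    rwa [h0, Submodule.mem_bot] at this
  · apply eq_top_of_tv
    intro φ w hw
    have : w ∈ W := by rw [h0]; trivial
    exact (hmem w).1 this φ hw

variable {p : ℕ} {τ : F →+ ZMod p}

/-- the annihilator in `V` -/
def Dp (τ : F →+ ZMod p) (H : Subgroup (SpecialLinearGroup F V)) (u : V) : Set V :=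
  {x | ∀ (φ : Dual F V) (hφ : φ u = 0), tv φ u hφ ∈ H → τ (φ x) = 0}

omit [FiniteDimensional F V] in
theorem mem_Dp_iff {u x : V} : x ∈ Dp τ H u ↔ (ln F u).mkQ x ∈ Db τ H u := by
  constructor
  · intro h ψ hψ
    exact h (ψ ∘ₗ (ln F u).mkQ) (tq_aux ψ) hψ
  · intro h φ hφ hm
    obtain ⟨ψ, e1, e2⟩ := tv_eq_tq hφ
    rw [← e2]
    apply h
    rw [mem_Pb, ← e1]
    exact hm

omit [FiniteDimensional F V] in
theorem self_mem_Dp (u : V) : u ∈ Dp τ H u := by
  intro φ hφ _
  rw [hφ, map_zero]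

omit [FiniteDimensional F V] in
theorem app_mem_Dp {h : SpecialLinearGroup F V} (hh : h ∈ H) {u x : V} (hx : x ∈ Dp τ H u) :
    h x ∈ Dp τ H (h u) := by
  intro φ hφ hm
  have hφ1 : ∀ x, φ (h x) = (φ ∘ₗ (((h : SpecialLinearGroup F V) : V ≃ₗ[F] V) : V →ₗ[F] V)) x := fun x => rfl
  have hφ2 : (φ ∘ₗ (((h : SpecialLinearGroup F V) : V ≃ₗ[F] V) : V →ₗ[F] V)) u = 0 := by rw [← hφ1, hφ]
  have h3 := conj_tv h (h := hφ2) (h' := hφ) hφ1 rfl
  rw [hφ1]
  apply hx _ hφ2
  rw [← h3] at hm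
  have h4 := H.mul_mem (H.mul_mem (H.inv_mem hh) hm) hh
  have h5 : h⁻¹ * (h * tv (φ ∘ₗ (((h : SpecialLinearGroup F V) : V ≃ₗ[F] V) : V →ₗ[F] V)) u hφ2 * h⁻¹) * h =
      tv (φ ∘ₗ (((h : SpecialLinearGroup F V) : V ≃ₗ[F] V) : V →ₗ[F] V)) u hφ2 := by group
  rwa [h5] at h4

/-- the span of `Dp` -/
def Ls (τ : F →+ ZMod p) (H : Subgroup (SpecialLinearGroup F V)) (u : V) : Submodule F V := Submodule.span F (Dp τ H u)

omit [FiniteDimensional F V] in
theorem self_mem_Ls (u : V) : u ∈ Ls τ H u := Submodule.subset_span (self_mem_Dp u)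

omit [FiniteDimensional F V] in
theorem Ls_map {h : SpecialLinearGroup F V} (hh : h ∈ H) (u : V) :
    Ls τ H (h u) = (Ls τ H u).map ((h : V ≃ₗ[F] V) : V →ₗ[F] V) := by
  apply le_antisymm
  · rw [Ls, Submodule.span_le]
    intro y hy
    refine ⟨h⁻¹ y, Submodule.subset_span ?_, app_inv_app h y⟩
    have := app_mem_Dp (H.inv_mem hh) hy
    rwa [inv_app_app] at this
  · rw [Ls, Submodule.map_span, Submodule.span_le]
    rintro _ ⟨x, hx, rfl⟩
    exact Submodule.subset_span (app_mem_Dp hh hx)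

omit [FiniteDimensional F V] in
theorem app_mem_Ls {h : SpecialLinearGroup F V} (hh : h ∈ H) {u x : V} (hx : x ∈ Ls τ H u) :
    h x ∈ Ls τ H (h u) := by
  rw [Ls_map hh]
  exact ⟨x, hx, rfl⟩

omit [FiniteDimensional F V] in
theorem app_mem_Ls_iff {h : SpecialLinearGroup F V} (hh : h ∈ H) {u x : V} :
    h x ∈ Ls τ H (h u) ↔ x ∈ Ls τ H u := by
  refine ⟨fun hx => ?_, app_mem_Ls hh⟩
  have := app_mem_Ls (H.inv_mem hh) hx
  rwa [inv_app_app, inv_app_app] at this

omit [FiniteDimensional F V] in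
theorem finrank_Ls {h : SpecialLinearGroup F V} (hh : h ∈ H) (u : V) :
    finrank F (Ls τ H (h u)) = finrank F (Ls τ H u) := by
  rw [Ls_map hh]
  exact LinearEquiv.finrank_map_eq (h : V ≃ₗ[F] V) _

variable [Finite F] [Fact p.Prime] [CharP F p]

/-- transvections vanishing on `Ls` lie in `H` -/
theorem tv_mem_of (hτ : ∀ c : F, (∀ x, τ (c * x) = 0) → c = 0) {u : V} {φ : Dual F V}
    (h : ∀ x ∈ Dp τ H u, φ x = 0) : tv φ u (h u (self_mem_Dp u)) ∈ H := by
  obtain ⟨ψ, e1, e2⟩ := tv_eq_tq (h u (self_mem_Dp u))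
  rw [e1]
  change ψ ∈ Pb H u
  apply mem_Pb_of hτ
  intro w hw
  obtain ⟨x, rfl⟩ := (ln F u).mkQ_surjective w
  rw [e2, h x (mem_Dp_iff.2 hw), map_zero]

/-- `Dp` contains vectors outside the line -/
theorem exists_Dp (hτ : ∀ c : F, (∀ x, τ (c * x) = 0) → c = 0) (hI : Irr H) (hne : H ≠ ⊤) {u : V} (hu : u ≠ 0) :
    ∃ w ∈ Dp τ H u, w ∉ ln F u := by
  by_contra hc
  push Not at hc
  apply hne
  apply top_of_full hI hu
  intro φ hφ
  apply tv_mem_of hτ
  intro x hx
  obtain ⟨c, rfl⟩ := Submodule.mem_span_singleton.1 (hc x hx)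
  rw [map_smul, hφ, smul_zero]

/-- hypothesis: all vector stabilisers are in the image -/
def Hall (τ : F →+ ZMod p) (H : Subgroup (SpecialLinearGroup F V)) : Prop :=
  ∀ u : V, u ≠ 0 → ∀ w ∈ Db τ H u, w ≠ 0 → stabilizer (SpecialLinearGroup F (V ⧸ ln F u)) w ≤ img H u

omit [Finite F] [CharP F p] in
theorem Hall.lift (hA : Hall τ H) {u w : V} (hu : u ≠ 0) (hw : w ∈ Dp τ H u) (hwu : w ∉ ln F u)
    {g : SpecialLinearGroup F V} (hgu : g u = u) (hgw : g w = w) :
    ∃ h ∈ H, h u = u ∧ ∀ x, ∃ c : F, h x = g x + c • u := by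
  have h1 := hA u hu ((ln F u).mkQ w) (mem_Dp_iff.1 hw) (by
    intro h
    rw [Submodule.mkQ_apply, Submodule.Quotient.mk_eq_zero] at h
    exact hwu h) (show down u ⟨g, hgu⟩ ∈ _ by
      rw [mem_stab, down_apply]
      change (ln F u).mkQ (g w) = _
      rw [hgw])
  rw [mem_img] at h1
  obtain ⟨h, hh, hhu, e⟩ := h1
  refine ⟨h, hh, hhu, fun x => ?_⟩
  have h2 := e x
  rw [down_apply] at h2
  exact exists_of_mkQ h2

/-- type II: transitivity outside of `Ls` -/
theorem transII (hτ : ∀ c : F, (∀ x, τ (c * x) = 0) → c = 0) (hI : Irr H) (hne : H ≠ ⊤) (hA : Hall τ H)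
    (hd : 4 ≤ finrank F V) {u : V} (hu : u ≠ 0) (h2 : finrank F (Ls τ H u) ≤ 2) {x y : V} (hx : x ∉ Ls τ H u)
    (hy : y ∉ Ls τ H u) : ∃ h ∈ H, h u = u ∧ h x = y := by
  obtain ⟨w, hw, hwu⟩ := exists_Dp hτ hI hne hu
  obtain ⟨g, hg, hgx⟩ := exists_map_fix (U := Ls τ H u) (by omega) hx hy
  obtain ⟨h, hh, hhu, e⟩ := hA.lift hu hw hwu (hg u (self_mem_Ls u)) (hg w (Submodule.subset_span hw))
  obtain ⟨c, hc⟩ := e x
  rw [hgx] at hc
  obtain ⟨θ, t1, t2⟩ := exists_fun hy
  have h3 : ∀ z ∈ Dp τ H u, (-c • θ) z = 0 := by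
    intro z hz
    rw [LinearMap.smul_apply, t2 z (Submodule.subset_span hz), smul_zero]
  have h4 := tv_mem_of hτ h3
  refine ⟨_, H.mul_mem h4 hh, ?_, ?_⟩
  · rw [mul_app, hhu, tv_apply, h3 u (self_mem_Dp u), zero_smul, add_zero]
  · rw [mul_app, hc, tv_apply, map_add, map_smul, h3 u (self_mem_Dp u), smul_zero, add_zero,
      LinearMap.smul_apply, t1, smul_eq_mul, mul_one, neg_smul]
    abel

/-- type II: transitivity on nonzero vectors -/
theorem transAll (hτ : ∀ c : F, (∀ x, τ (c * x) = 0) → c = 0) (hI : Irr H) (hne : H ≠ ⊤) (hA : Hall τ H)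
    (hd : 4 ≤ finrank F V) {u : V} (hu : u ≠ 0) (h2 : finrank F (Ls τ H u) ≤ 2) {x y : V} (hx : x ≠ 0)
    (hy : y ≠ 0) : ∃ h ∈ H, h x = y := by
  have key : ∀ z : V, z ≠ 0 → ∃ h ∈ H, h z ∉ Ls τ H u := by
    intro z hz
    by_contra hc
    push Not at hc
    let W : Submodule F V :=
      { carrier := {w | ∀ h ∈ H, h w ∈ Ls τ H u}
        zero_mem' := by
          intro h _
          rw [app_zero]
          exact Submodule.zero_mem _
        add_mem' := by
          intro a b ha hb h hh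
          rw [app_add]
          exact Submodule.add_mem _ (ha h hh) (hb h hh)
        smul_mem' := by
          intro c a ha h hh
          rw [app_smul]
          exact Submodule.smul_mem _ _ (ha h hh) }
    rcases hI W (by
      intro h hh x hx k hk
      rw [← mul_app]
      exact hx _ (H.mul_mem hk hh)) with h0 | h0
    · apply hz
      have : z ∈ W := fun h hh => hc h hh
      rwa [h0, Submodule.mem_bot] at this
    · have h3 : Ls τ H u = ⊤ := by
        rw [eq_top_iff]
        intro v _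
        have : v ∈ W := by rw [h0]; trivial
        have := this 1 H.one_mem
        rwa [one_app] at this
      rw [h3, finrank_top] at h2
      omega
  obtain ⟨h, hh, h3⟩ := key x hx
  obtain ⟨k, hk, h4⟩ := key y hy
  obtain ⟨l, hl, -, h5⟩ := transII hτ hI hne hA hd hu h2 h3 h4
  refine ⟨k⁻¹ * (l * h), H.mul_mem (H.inv_mem hk) (H.mul_mem hl hh), ?_⟩
  rw [mul_app, mul_app, h5, inv_app_app]

omit [Finite F] [Fact p.Prime] [CharP F p] in
theorem Ls_eq_of {L : Submodule F V} {z a b : V} (h2 : finrank F (Ls τ H z) ≤ 2) (ha0 : a ≠ 0) (hab : b ∉ ln F a)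
    (ha : a ∈ Ls τ H z) (hb : b ∈ Ls τ H z) (haL : a ∈ L) (hbL : b ∈ L) : Ls τ H z ≤ L := by
  have h3 : Submodule.span F {a} ⊔ Submodule.span F {b} ≤ Ls τ H z := by
    rw [sup_le_iff, Submodule.span_singleton_le_iff_mem, Submodule.span_singleton_le_iff_mem]
    exact ⟨ha, hb⟩
  have h4 : 2 ≤ finrank F (Submodule.span F {a} ⊔ Submodule.span F {b} : Submodule F V) := by
    have h5 : Submodule.span F {a} < Submodule.span F {a} ⊔ Submodule.span F {b} := by
      refine lt_of_le_of_ne le_sup_left fun h => hab ?_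
      rw [ln, h]
      exact Submodule.mem_sup_right (Submodule.mem_span_singleton_self b)
    have h6 := Submodule.finrank_lt_finrank_of_lt h5
    rw [finrank_span_singleton ha0] at h6
    omega
  have h5 := Submodule.eq_of_le_of_finrank_le h3 (by omega)
  rw [← h5, sup_le_iff, Submodule.span_singleton_le_iff_mem, Submodule.span_singleton_le_iff_mem]
  exact ⟨haL, hbL⟩

/-- **type II does not occur** -/
theorem falseII (hτ : ∀ c : F, (∀ x, τ (c * x) = 0) → c = 0) (hI : Irr H) (hne : H ≠ ⊤) (hA : Hall τ H)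
    (hd : 4 ≤ finrank F V) {u₀ : V} (hu₀ : u₀ ≠ 0) (h2 : finrank F (Ls τ H u₀) ≤ 2) : False := by
  have hT : ∀ x y : V, x ≠ 0 → y ≠ 0 → ∃ h ∈ H, h x = y := fun x y hx hy => transAll hτ hI hne hA hd hu₀ h2 hx hy
  have hL : ∀ u : V, u ≠ 0 → finrank F (Ls τ H u) ≤ 2 := by
    intro u hu
    obtain ⟨h, hh, rfl⟩ := hT u₀ u hu₀ hu
    rw [finrank_Ls hh]
    exact h2
  have hLt : ∀ u : V, u ≠ 0 → Ls τ H u ≠ ⊤ := by
    intro u hu h
    have := hL u hu
    rw [h, finrank_top] at this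
    omega
  have hTu : ∀ u : V, u ≠ 0 → ∀ x y, x ∉ Ls τ H u → y ∉ Ls τ H u → ∃ h ∈ H, h u = u ∧ h x = y :=
    fun u hu x y hx hy => transII hτ hI hne hA hd hu (hL u hu) hx hy
  -- symmetry
  have hsym : ∀ u u' : V, u ≠ 0 → u' ≠ 0 → u' ∈ Ls τ H u → u ∈ Ls τ H u' := by
    intro u u' hu hu' hm
    by_contra hc
    have P : ∀ a b : V, a ≠ 0 → b ∈ Ls τ H a → b ≠ 0 → a ∉ Ls τ H b → ∀ z, z ∉ Ls τ H b → b ∈ Ls τ H z := by
      intro a b ha hb hb0 hab z hz
      obtain ⟨h, hh, h3, h4⟩ := hTu b hb0 a z hab hz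
      rw [← h3, ← h4]
      exact app_mem_Ls hh hb
    obtain ⟨h, hh, e⟩ := hT u u' hu hu'
    have h3 : h u' ∈ Ls τ H u' := by
      rw [← e]
      rw [e]
      have := app_mem_Ls hh hm
      rwa [e] at this
    have h4 : u' ∉ Ls τ H (h u') := by
      intro h5
      apply hc
      rw [← app_mem_Ls_iff hh, e]
      exact h5
    have hv0 : h u' ≠ 0 := by
      intro h5
      rw [← app_zero h] at h5
      exact hu' (app_inj h h5)
    obtain ⟨z, hz1, hz2⟩ := exists_notMem_two (hLt u' hu') (hLt (h u') hv0)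
    have hz0 : z ≠ 0 := by
      rintro rfl
      exact hz1 (Submodule.zero_mem _)
    have h5 := P u u' hu hm hu' hc z hz1
    have h6 := P u' (h u') hu' h3 hv0 h4 z hz2
    have h7 : h u' ∉ ln F u' := by
      intro h8
      obtain ⟨c, hc8⟩ := Submodule.mem_span_singleton.1 h8
      have hc0 : c ≠ 0 := by
        rintro rfl
        rw [zero_smul] at hc8
        exact hv0 hc8.symm
      apply h4
      have h9 := Submodule.smul_mem _ c⁻¹ (self_mem_Ls (τ := τ) (H := H) (h u'))
      rw [← hc8, smul_smul, inv_mul_cancel₀ hc0, one_smul, hc8] at h9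
      exact h9
    have h8 := Ls_eq_of (hL z hz0) hu' h7 h5 h6 (self_mem_Ls u') h3
    exact hz1 (h8 (self_mem_Ls z))
  have heq1 : ∀ x z : V, x ≠ 0 → z ∈ Ls τ H x → z ∉ ln F x → Ls τ H z = Ls τ H x := by
    intro x z hx hz hzx
    have hz0 : z ≠ 0 := by
      rintro rfl
      exact hzx (Submodule.zero_mem _)
    have h3 := hsym x z hx hz0 hz
    exact le_antisymm (Ls_eq_of (hL z hz0) hx hzx h3 (self_mem_Ls z) (self_mem_Ls x) hz)
      (Ls_eq_of (hL x hx) hx hzx (self_mem_Ls x) hz h3 (self_mem_Ls z))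
  have heq : ∀ x z : V, x ≠ 0 → z ≠ 0 → z ∈ Ls τ H x → Ls τ H z = Ls τ H x := by
    intro x z hx hz0 hz
    by_cases hzx : z ∈ ln F x
    · obtain ⟨y, hy, hyx⟩ := exists_Dp hτ hI hne hx
      have h3 := heq1 x y hx (Submodule.subset_span hy) hyx
      obtain ⟨c, rfl⟩ := Submodule.mem_span_singleton.1 hzx
      have hc0 : c ≠ 0 := by
        rintro rfl
        rw [zero_smul] at hz0
        exact hz0 rfl
      have hy0 : y ≠ 0 := by
        rintro rfl
        exact hyx (Submodule.zero_mem _)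
      have h4 : c • x ∉ ln F y := by
        intro h5
        obtain ⟨d, e⟩ := Submodule.mem_span_singleton.1 h5
        have hd0 : d ≠ 0 := by
          rintro rfl
          rw [zero_smul] at e
          exact hz0 e.symm
        apply hyx
        rw [ln, Submodule.mem_span_singleton]
        exact ⟨d⁻¹ * c, by rw [mul_smul, ← e, smul_smul, inv_mul_cancel₀ hd0, one_smul]⟩
      rw [heq1 y (c • x) hy0 (by rw [h3]; exact hz) h4, h3]
    · exact heq1 x z hx hz hzx
  -- the contradiction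
  obtain ⟨x, hx⟩ : ∃ x, x ∉ Ls τ H u₀ := by
    obtain ⟨x, hx, -⟩ := exists_notMem_two (hLt u₀ hu₀) (hLt u₀ hu₀)
    exact ⟨x, hx⟩
  have hx0 : x ≠ 0 := by
    rintro rfl
    exact hx (Submodule.zero_mem _)
  obtain ⟨θ, t1, t2⟩ := exists_fun hx
  have h3 : ∀ z ∈ Dp τ H u₀, θ z = 0 := fun z hz => t2 z (Submodule.subset_span hz)
  have h4 := tv_mem_of hτ h3
  obtain ⟨x', hx', hx'x⟩ := exists_Dp hτ hI hne hx0
  have hzm : x' - θ x' • x ∈ Ls τ H x :=
    Submodule.sub_mem _ (Submodule.subset_span hx') (Submodule.smul_mem _ _ (self_mem_Ls x))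
  have hz0 : x' - θ x' • x ≠ 0 := by
    intro h5
    apply hx'x
    rw [sub_eq_zero.1 h5]
    exact Submodule.smul_mem _ _ (Submodule.mem_span_singleton_self x)
  have hθz : θ (x' - θ x' • x) = 0 := by
    rw [map_sub, map_smul, t1, smul_eq_mul, mul_one, sub_self]
  have h5 := heq x _ hx0 hz0 hzm
  have h6 : tv θ u₀ (h3 u₀ (self_mem_Dp u₀)) (x' - θ x' • x) = x' - θ x' • x := by
    rw [tv_apply, hθz, zero_smul, add_zero]
  have h7 : x ∈ Ls τ H (x' - θ x' • x) := by rw [h5]; exact self_mem_Ls x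
  have h8 := app_mem_Ls h4 h7
  rw [h6, tv_apply, t1, one_smul, h5] at h8
  have h9 : u₀ ∈ Ls τ H x := by
    have := Submodule.sub_mem _ h8 (self_mem_Ls x)
    rwa [add_sub_cancel_left] at this
  rw [← heq x u₀ hx0 hu₀ h9] at hzm h8
  have h10 := Submodule.sub_mem _ h8 (self_mem_Ls u₀)
  rw [add_sub_cancel_right] at h10
  exact hx h10

end Str

end Cfsg.Agent.H110.Gap
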