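import Cfsg.Agent.H110.Fpr.GapB
import Cfsg.Agent.S0806
import Cfsg.Agent.S2140
import Cfsg.Agent.SignalizersComponents.SLQuasisimple
import Cfsg.Agent.H408.Engine

/-!
# Irreducible subgroups of `SL_n(q)`, `n ≥ 4`, have large index (helper110)
-/

set_option autoImplicit false

namespace Cfsg.Agent.H110.Gap

open Module hiding ext'
open MulAction Cfsg.Agent.H221.PP

section Main

variable {F : Type*} [Field F] {V : Type*} [AddCommGroup V] [Module F V] [FiniteDimensional F V]
variable {H : Subgroup (SpecialLinearGroup F V)} {p : ℕ} {τ : F →+ ZMod p} [Finite F] [Fact p.Prime] [CharP F p]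

/-- **type I everywhere does not occur** -/
theorem falseI (hτ : ∀ c : F, (∀ x, τ (c * x) = 0) → c = 0) (hI : Irr H) (hne : H ≠ ⊤) (hA : Hall τ H)
    (hd : 4 ≤ finrank F V) (hF : ¬ (finrank F V = 4 ∧ Nat.card F = 2))
    (h3 : ∀ u : V, u ≠ 0 → 3 ≤ finrank F (Ls τ H u)) : False := by
  have himg : ∀ u : V, u ≠ 0 → img H u = ⊤ ∧ ∀ ψ ∈ Pb H u, ψ = 0 := by
    intro u hu
    have hq := finrank_quo (F := F) hu
    obtain ⟨w, hw, hwu⟩ := exists_Dp hτ hI hne hu
    obtain ⟨w₂, hw₂, hw₂u⟩ : ∃ w₂ ∈ Dp τ H u, w₂ ∉ ln F u ⊔ ln F w := by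
      by_contra hc
      push Not at hc
      have h4 : Ls τ H u ≤ ln F u ⊔ ln F w := by
        rw [Ls, Submodule.span_le]
        exact hc
      have h5 := Submodule.finrank_mono h4
      have h6 := Submodule.finrank_add_le_finrank_add_finrank (ln F u) (ln F w)
      have h7 : finrank F (ln F u) ≤ 1 := finrank_span_singleton_le' (F := F) u
      have h8 : finrank F (ln F w) ≤ 1 := finrank_span_singleton_le' (F := F) w
      have h9 := h3 u hu
      omega
    have e1 : (ln F u).mkQ w ≠ 0 := by
      intro h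
      rw [Submodule.mkQ_apply, Submodule.Quotient.mk_eq_zero] at h
      exact hwu h
    have e2 : (ln F u).mkQ w₂ ∉ ln F ((ln F u).mkQ w) := by
      intro h
      obtain ⟨c, hc⟩ := Submodule.mem_span_singleton.1 h
      rw [← map_smul] at hc
      obtain ⟨l, hl⟩ := exists_of_mkQ hc
      apply hw₂u
      have : w₂ = (-l) • u + c • w := by rw [hl, neg_smul]; abel
      rw [this]
      exact Submodule.add_mem _ (Submodule.mem_sup_left (Submodule.smul_mem _ _ (Submodule.mem_span_singleton_self u)))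
        (Submodule.mem_sup_right (Submodule.smul_mem _ _ (Submodule.mem_span_singleton_self w)))
    have e3 : (ln F u).mkQ w₂ ≠ 0 := by
      intro h
      rw [h] at e2
      exact e2 (Submodule.zero_mem _)
    have htop := two_stab e1 e2 (hA u hu _ (mem_Dp_iff.1 hw) e1) (hA u hu _ (mem_Dp_iff.1 hw₂) e3)
    refine ⟨htop, fun ψ hψ => ?_⟩
    apply LinearMap.ext
    intro x
    apply hτ
    intro c
    by_cases hx : c • x = 0
    · rw [mul_comm, ← smul_eq_mul, ← map_smul, hx, map_zero, map_zero]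
    · obtain ⟨g, hg⟩ := exists_map (F := F) (by omega) e1 hx
      have h4 : g ((ln F u).mkQ w) ∈ Db τ H u := img_Db (mem_Dp_iff.1 hw) (by rw [htop]; trivial)
      rw [hg] at h4
      rw [mul_comm, ← smul_eq_mul, ← map_smul]
      exact h4 ψ hψ
  have hN : NoTv H := by
    intro φ w hw hm
    by_cases hw0 : w = 0
    · exact Or.inr hw0
    · left
      obtain ⟨ψ, e1, e2⟩ := tv_eq_tq hw
      rw [e1] at hm
      have := (himg w hw0).2 ψ hm
      ext x
      rw [← e2, this]
      rfl
  have : Nontrivial V := Module.nontrivial_of_finrank_pos (R := F) (by omega)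
  obtain ⟨v, hv⟩ := exists_ne (0 : V)
  have hS := fun g => exists_lf (himg v hv).1 g
  by_cases h5 : 5 ≤ finrank F V
  · exact false_five hN hv h5 hS
  · have h4 : finrank F V = 4 := by omega
    by_cases h2 : (2 : F) = 0
    · obtain ⟨a, ha, ha2⟩ : ∃ a : F, a ≠ 0 ∧ a ^ 2 ≠ 1 := by
        by_contra hc
        push Not at hc
        apply hF
        refine ⟨h4, card_two fun a => ?_⟩
        by_cases ha : a = 0
        · exact Or.inl ha
        · right
          have h6 := hc a ha
          have h7 : (a - 1) ^ 2 = 0 := by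
            have : (a - 1) ^ 2 = a ^ 2 - 2 * a + 1 := by ring
            rw [this, h6, h2, zero_mul, sub_zero]
            have : (1 : F) + 1 = 2 := by norm_num
            rw [this, h2]
          exact sub_eq_zero.1 (pow_eq_zero_iff (two_ne_zero)|>.1 h7)
      exact false_four_a hN hv h4 ha ha2 hS
    · exact false_four_b hN hv h4 h2 hS

/-- **irreducible proper subgroups of `SL(V)`** -/
theorem gap_lin (hd : 4 ≤ finrank F V) (hF : ¬ (finrank F V = 4 ∧ Nat.card F = 2)) (hI : Irr H) (hne : H ≠ ⊤)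
    {i m : ℕ} (hm : m + 2 = finrank F V) (h1 : i ≤ Nat.card F ^ m)
    (h2 : ∀ S : Subgroup (Matrix.SpecialLinearGroup (Fin m) F), S ≠ ⊤ → i ≤ S.index) :
    (Nat.card F ^ (finrank F V - 1) - 1) * i ≤ H.index := by
  obtain ⟨p, hp⟩ := CharP.exists F
  have : Fact p.Prime := ⟨CharP.char_is_prime F p⟩
  obtain ⟨τ, hτ⟩ := Cfsg.Agent.H74.exists_tau F p
  by_cases hA : Hall τ H
  · exfalso
    by_cases hII : ∃ u : V, u ≠ 0 ∧ finrank F (Ls τ H u) ≤ 2
    · obtain ⟨u, hu, h3⟩ := hII
      exact falseII hτ hI hne hA hd hu h3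
    · push Not at hII
      exact falseI hτ hI hne hA hd hF fun u hu => hII u hu
  · rw [Hall] at hA
    push Not at hA
    obtain ⟨u, hu, w, hw, hw0, hM⟩ := hA
    refine (Nat.mul_le_mul_left _ ?_).trans (num hτ (by omega) H hu hw0 hw)
    have hq := finrank_quo (F := F) hu
    have hq2 := finrank_quo (F := F) hw0
    have hm' : finrank F ((V ⧸ ln F u) ⧸ ln F w) = m := by omega
    refine stab_bound hτ (by omega) hw0 hM ?_ ?_
    · rw [Module.natCard_eq_pow_finrank (K := F) (V := (V ⧸ ln F u) ⧸ ln F w), hm']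
      exact h1
    · intro S hS
      let b : Basis (Fin m) F ((V ⧸ ln F u) ⧸ ln F w) := finBasisOfFinrankEq F _ hm'
      let e : Matrix.SpecialLinearGroup (Fin m) F ≃* SpecialLinearGroup F ((V ⧸ ln F u) ⧸ ln F w) :=
        Matrix.SpecialLinearGroup.toLin_equiv b
      have h3 : (S.comap e.toMonoidHom).index = S.index := Subgroup.index_comap_of_surjective _ e.surjective
      rw [← h3]
      apply h2
      intro h4
      apply hS
      rw [h4, Subgroup.index_top] at h3
      exact Subgroup.index_eq_one.1 h3.symm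

end Main

section Mat

variable {F : Type*} [Field F] [Fintype F] {n : ℕ}

/-- matrix form -/
theorem gap (hn : 4 ≤ n) (hF : ¬ (n = 4 ∧ Fintype.card F = 2)) {H : Subgroup (Matrix.SpecialLinearGroup (Fin n) F)}
    (hne : H ≠ ⊤)
    (hI : ∀ W : Submodule F (Fin n → F),
      (∀ h ∈ H, ∀ x ∈ W, Matrix.mulVec (h : Matrix (Fin n) (Fin n) F) x ∈ W) → W = ⊥ ∨ W = ⊤)
    {i m : ℕ} (hm : m + 2 = n) (h1 : i ≤ Fintype.card F ^ m)
    (h2 : ∀ S : Subgroup (Matrix.SpecialLinearGroup (Fin m) F), S ≠ ⊤ → i ≤ S.index) :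
    (Fintype.card F ^ (n - 1) - 1) * i ≤ H.index := by
  let e : Matrix.SpecialLinearGroup (Fin n) F ≃* SpecialLinearGroup F (Fin n → F) :=
    Matrix.SpecialLinearGroup.toLin'_equiv
  have h3 : (H.comap e.symm.toMonoidHom).index = H.index :=
    Subgroup.index_comap_of_surjective _ e.symm.surjective
  have h4 : H.comap e.symm.toMonoidHom ≠ ⊤ := by
    intro h
    rw [h, Subgroup.index_top] at h3
    exact hne (Subgroup.index_eq_one.1 h3.symm)
  have hr : finrank F (Fin n → F) = n := finrank_fin_fun F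
  have h5 := gap_lin (F := F) (V := Fin n → F) (H := H.comap e.symm.toMonoidHom) (i := i) (m := m) (by rw [hr]; exact hn)
    (by rw [hr, Nat.card_eq_fintype_card]; exact hF) (by
      intro W hW
      apply hI W
      intro h hh x hx
      have h6 := hW (e h) (by
        rw [Subgroup.mem_comap]
        change e.symm (e h) ∈ H
        rw [MulEquiv.symm_apply_apply]
        exact hh) x hx
      exact h6) h4 (by rw [hr]; exact hm) (by rw [Nat.card_eq_fintype_card]; exact h1) h2
  rw [hr, h3, Nat.card_eq_fintype_card] at h5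
  exact h5

end Mat

end Cfsg.Agent.H110.Gap
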