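import Cfsg.Agent.H110.Fpr.GapC
import Cfsg.Agent.ClassicalGeometry.PSL2Basic
import Cfsg.Agent.S0256

/-!
# Irreducible subgroups of `SL_n(q)`, `n ≥ 4`: explicit bounds (helper110)
-/

set_option autoImplicit false

namespace Cfsg.Agent.H110.Gap

open Matrix
open scoped commutatorElement

variable {F : Type*} [Field F] [Fintype F] {n : ℕ}

/-- `H` acts irreducibly, matrix form -/
def IrrM (H : Subgroup (Matrix.SpecialLinearGroup (Fin n) F)) : Prop :=
  ∀ W : Submodule F (Fin n → F),
    (∀ h ∈ H, ∀ x ∈ W, Matrix.mulVec (h : Matrix (Fin n) (Fin n) F) x ∈ W) → W = ⊥ ∨ W = ⊤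

/-- quasisimple groups: proper subgroups have proper image -/
theorem index_image_le {G : Type*} [Group G] [Finite G] (hG : IsQuasisimple G) {S : Subgroup G} (hS : S ≠ ⊤) :
    S.map (QuotientGroup.mk' (Subgroup.center G)) ≠ ⊤ ∧
      (S.map (QuotientGroup.mk' (Subgroup.center G))).index ≤ S.index := by
  constructor
  · intro h
    apply hS
    have h1 : ∀ g : G, ∃ s ∈ S, ∃ z ∈ Subgroup.center G, g = s * z := by
      intro g
      have h2 : QuotientGroup.mk' (Subgroup.center G) g ∈ S.map (QuotientGroup.mk' (Subgroup.center G)) := by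
        rw [h]; trivial
      obtain ⟨s, hs, e⟩ := h2
      have h3 : s⁻¹ * g ∈ Subgroup.center G := by
        rw [QuotientGroup.mk'_apply, QuotientGroup.mk'_apply] at e
        exact QuotientGroup.eq.1 e
      exact ⟨s, hs, s⁻¹ * g, h3, by group⟩
    have h3 : commutator G ≤ S := by
      rw [commutator_def, Subgroup.commutator_le]
      intro a _ b _
      obtain ⟨a, ha, z, hz, rfl⟩ := h1 a
      obtain ⟨b, hb, y, hy, rfl⟩ := h1 b
      have hz' := Subgroup.mem_center_iff.1 hz
      have hy' := Subgroup.mem_center_iff.1 hy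
      have e : ⁅a * z, b * y⁆ = ⁅a, b⁆ := by
        rw [commutatorElement_def, commutatorElement_def]
        have e1 : a * z * (b * y) * (a * z)⁻¹ = (a * b * a⁻¹) * y := by
          calc a * z * (b * y) * (a * z)⁻¹ = a * (z * (b * y)) * z⁻¹ * a⁻¹ := by group
            _ = a * ((b * y) * z) * z⁻¹ * a⁻¹ := by rw [hz' (b * y)]
            _ = a * b * (y * a⁻¹) := by group
            _ = a * b * (a⁻¹ * y) := by rw [hy' a⁻¹]
            _ = (a * b * a⁻¹) * y := by group
        rw [e1]
        group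
      rw [e, commutatorElement_def]
      exact S.mul_mem (S.mul_mem (S.mul_mem ha hb) (S.inv_mem ha)) (S.inv_mem hb)
    have h4 : commutator G = ⊤ := hG.1.commutator_eq_top
    rw [h4] at h3
    exact top_le_iff.1 h3
  · exact Nat.le_of_dvd (Nat.pos_of_ne_zero Subgroup.index_ne_zero_of_finite)
      (Subgroup.index_map_dvd _ (QuotientGroup.mk'_surjective _))

/-- the minimal index of `SL₂(q)` -/
def mi (q : ℕ) : ℕ := if q = 3 then 3 else if q = 5 then 5 else if q = 7 then 7 else if q = 9 then 6 else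
  if q = 11 then 11 else q + 1

theorem factorial_aux {N k m : ℕ} (h : N ∣ k.factorial) (hm : ¬ N ∣ m.factorial) : m + 1 ≤ k := by
  by_contra hc
  exact hm (h.trans (Nat.factorial_dvd_factorial (by omega)))

theorem two_lt_aux (hq : Fintype.card F = 3) {S : Subgroup (Matrix.SpecialLinearGroup (Fin 2) F)} (hS : S ≠ ⊤) :
    3 ≤ S.index := by
  have h1 : S.index ≠ 1 := fun h => hS (Subgroup.index_eq_one.1 h)
  have h0 : S.index ≠ 0 := Subgroup.index_ne_zero_of_finite
  by_contra hc
  have h2 : S.index = 2 := by omega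
  apply hS
  have h3 : (3 : F) = 0 := by
    have := FiniteField.cast_card_eq_zero F
    rw [hq] at this
    exact_mod_cast this
  have key : ∀ g : Matrix.SpecialLinearGroup (Fin 2) F, g ^ 3 = 1 → g ∈ S := by
    intro g hg
    have h4 := Subgroup.mul_self_mem_of_index_two h2 g
    have h5 : g = (g * g) * (g * g) := by
      have h6 : g ^ 3 * g = (g * g) * (g * g) := by
        rw [pow_succ, pow_succ, pow_one]
        simp only [mul_assoc]
      rw [← h6, hg, one_mul]
    rw [h5]
    exact S.mul_mem h4 h4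
  let e : Matrix.SpecialLinearGroup (Fin 2) F ≃* _root_.SpecialLinearGroup F (Fin 2 → F) :=
    Matrix.SpecialLinearGroup.toLin'_equiv
  have h4 : S.comap e.symm.toMonoidHom = ⊤ := by
    apply Cfsg.Agent.H221.PP.eq_top_of_tv
    intro φ w hw
    change e.symm _ ∈ S
    apply key
    rw [← map_pow]
    have : (Cfsg.Agent.H221.PP.tv φ w hw) ^ 3 = 1 := by
      apply Cfsg.Agent.H221.PP.ext'
      intro x
      rw [pow_succ, pow_succ, pow_one, Cfsg.Agent.H221.PP.mul_app, Cfsg.Agent.H221.PP.mul_app,
        Cfsg.Agent.H221.PP.tv_apply, Cfsg.Agent.H221.PP.tv_apply, Cfsg.Agent.H221.PP.tv_apply,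
        Cfsg.Agent.H221.PP.one_app]
      simp only [map_add, map_smul, hw, smul_zero, add_zero]
      rw [add_assoc, add_assoc, ← add_smul, ← add_smul]
      have h5 : φ x + (φ x + φ x) = 3 * φ x := by ring
      rw [h5, h3, zero_mul, zero_smul, add_zero]
    rw [this, map_one]
  rw [eq_top_iff]
  intro g _
  have h5 : e g ∈ S.comap e.symm.toMonoidHom := by rw [h4]; trivial
  change e.symm (e g) ∈ S at h5
  rwa [MulEquiv.symm_apply_apply] at h5

/-- the minimal index of `SL₂(q)` -/
theorem sl_two_min (h2 : 3 ≤ Fintype.card F) {S : Subgroup (Matrix.SpecialLinearGroup (Fin 2) F)} (hS : S ≠ ⊤) :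
    mi (Fintype.card F) ≤ S.index := by
  obtain ⟨q, hq⟩ : ∃ q, q = Fintype.card F := ⟨_, rfl⟩
  rw [← hq] at h2 ⊢
  by_cases h3 : q = 3
  · subst h3
    exact two_lt_aux hq.symm hS
  have h4 : 4 ≤ Nat.card F := by rw [Nat.card_eq_fintype_card]; omega
  obtain ⟨h5, h6⟩ := index_image_le (Cfsg.Agent.SignalizersComponents.SLQuasisimple.isQuasisimple_two h4) hS
  refine le_trans ?_ h6
  have hsim : IsSimpleGroup (Matrix.ProjectiveSpecialLinearGroup (Fin 2) F) :=
    (Cfsg.Agent.SignalizersComponents.SLQuasisimple.isQuasisimple_two h4).2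
  have h7 : Nat.card (Matrix.ProjectiveSpecialLinearGroup (Fin 2) F) ∣
      (S.map (QuotientGroup.mk' (Subgroup.center (Matrix.SpecialLinearGroup (Fin 2) F)))).index.factorial :=
    Cfsg.Agent.H408.Engine.card_dvd_factorial h5
  by_cases hex : q = 5 ∨ q = 7 ∨ q = 9 ∨ q = 11
  · have hcard := Cfsg.Agent.ClassicalGeometry.PSL2Basic.card_PSL2_odd F (by
      rw [← hq]
      rcases hex with h | h | h | h <;> rw [h] <;> decide)
    rw [← hq] at hcard
    rcases hex with rfl | rfl | rfl | rfl
    · have h8 : Nat.card (Matrix.ProjectiveSpecialLinearGroup (Fin 2) F) = 60 := by omega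
      rw [h8] at h7
      exact factorial_aux (m := 4) h7 (by decide)
    · have h8 : Nat.card (Matrix.ProjectiveSpecialLinearGroup (Fin 2) F) = 168 := by omega
      rw [h8] at h7
      exact factorial_aux (m := 6) h7 (by decide)
    · have h8 : Nat.card (Matrix.ProjectiveSpecialLinearGroup (Fin 2) F) = 360 := by omega
      rw [h8] at h7
      exact factorial_aux (m := 5) h7 (by decide)
    · have h8 : Nat.card (Matrix.ProjectiveSpecialLinearGroup (Fin 2) F) = 660 := by omega
      rw [h8] at h7
      exact factorial_aux (m := 10) h7 (by decide)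
  · push Not at hex
    have h8 : mi q = q + 1 := by
      rw [mi, if_neg h3, if_neg hex.1, if_neg hex.2.1, if_neg hex.2.2.1, if_neg hex.2.2.2]
    rw [h8]
    refine (Cfsg.Agent.S0806.result (F := F) hq.symm ?_).1 _ h5
    simp only [Finset.mem_insert, Finset.mem_singleton]
    omega

/-- the minimal index of `SL₄(2)` -/
theorem sl_four_two_min (hF : Fintype.card F = 2) {S : Subgroup (Matrix.SpecialLinearGroup (Fin 4) F)} (hS : S ≠ ⊤) :
    8 ≤ S.index := by
  have hQ := Cfsg.Agent.SignalizersComponents.SLQuasisimple.isQuasisimple_of_three_le (ι := Fin 4) (F := F) (by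
    rw [Fintype.card_fin]; omega)
  obtain ⟨h5, h6⟩ := index_image_le hQ hS
  refine le_trans ?_ h6
  have hsim : IsSimpleGroup (Matrix.ProjectiveSpecialLinearGroup (Fin 4) F) := hQ.2
  have h7 : Nat.card (Matrix.ProjectiveSpecialLinearGroup (Fin 4) F) ∣
      (S.map (QuotientGroup.mk' (Subgroup.center (Matrix.SpecialLinearGroup (Fin 4) F)))).index.factorial :=
    Cfsg.Agent.H408.Engine.card_dvd_factorial h5
  obtain ⟨e⟩ := Cfsg.Agent.S0256.result hF
  have h8 : Nat.card (Matrix.ProjectiveSpecialLinearGroup (Fin 4) F) = 20160 := by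
    rw [Nat.card_congr e.toEquiv]
    have h9 : 2 * Nat.card (alternatingGroup (Fin 8)) = Nat.card (Equiv.Perm (Fin 8)) := two_mul_nat_card_alternatingGroup
    rw [Nat.card_perm, Nat.card_fin, show Nat.factorial 8 = 40320 by decide] at h9
    omega
  rw [h8] at h7
  exact factorial_aux (m := 7) h7 (by decide)

/-- **dimension four** -/
theorem gap_four (hq : 3 ≤ Fintype.card F) {H : Subgroup (Matrix.SpecialLinearGroup (Fin 4) F)} (hne : H ≠ ⊤)
    (hI : IrrM H) : (Fintype.card F ^ 3 - 1) * mi (Fintype.card F) ≤ H.index := by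
  refine gap (n := 4) (m := 2) le_rfl (fun h => by omega) hne hI rfl ?_ (fun S hS => sl_two_min hq hS)
  rw [mi]
  split_ifs
  · nlinarith
  · nlinarith
  · nlinarith
  · nlinarith
  · nlinarith
  · nlinarith

/-- **dimension at least five** -/
theorem gap_five (hn : 5 ≤ n) (h6 : ¬ (n = 6 ∧ Fintype.card F = 2)) {H : Subgroup (Matrix.SpecialLinearGroup (Fin n) F)}
    (hne : H ≠ ⊤) (hI : IrrM H) :
    (Fintype.card F ^ (n - 1) - 1) * ((Fintype.card F ^ (n - 2) - 1) / (Fintype.card F - 1)) ≤ H.index := by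
  refine gap (m := n - 2) (by omega) (fun h => by omega) hne hI (by omega) ?_
    (fun S hS => Cfsg.Agent.H74.Psl.min_index rfl (by omega) (fun h => h6 ⟨by omega, h.2⟩) S hS)
  exact (Nat.div_le_self _ _).trans (Nat.sub_le _ _)

/-- **dimension six over the field with two elements** -/
theorem gap_six_two (hF : Fintype.card F = 2) {H : Subgroup (Matrix.SpecialLinearGroup (Fin 6) F)}
    (hne : H ≠ ⊤) (hI : IrrM H) : 31 * 8 ≤ H.index := by
  have := gap (n := 6) (m := 4) (i := 8) (by omega) (fun h => by omega) hne hI rfl (by rw [hF]; norm_num)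
    (fun S hS => sl_four_two_min hF hS)
  rw [hF] at this
  exact this

end Cfsg.Agent.H110.Gap
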