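import Cfsg.Agent.H110.Fpr.Irr

/-!
# The field of a minimal invariant subspace
-/

set_option autoImplicit false

namespace Cfsg.Agent.H110.Fpr

open Cfsg.Agent.TitsThree.Siegel Cfsg.Agent.TitsThree.SiegelGen
open Polynomial

section Alg

variable {K : Type*} [Field K]

theorem exists_frob [Finite K] {r : ℕ} [Fact r.Prime] [CharP K r] {α : K}
    (h : ∀ m : (ZMod r)[X], Polynomial.eval₂ (ZMod.castHom (dvd_refl r) K) α m = 0 →
      Polynomial.eval₂ (ZMod.castHom (dvd_refl r) K) α⁻¹ m = 0) : ∃ n : ℕ, α⁻¹ = α ^ r ^ n := by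
  let _ : Algebra (ZMod r) K := ZMod.algebra K r
  have hal : algebraMap (ZMod r) K = ZMod.castHom (dvd_refl r) K := Subsingleton.elim _ _
  have hint : IsIntegral (ZMod r) α := Algebra.IsIntegral.isIntegral α
  have hint' : IsIntegral (ZMod r) α⁻¹ := Algebra.IsIntegral.isIntegral _
  have h1 : Polynomial.aeval α⁻¹ (minpoly (ZMod r) α) = 0 := by
    rw [Polynomial.aeval_def, hal]
    apply h
    rw [← hal, ← Polynomial.aeval_def]
    exact minpoly.aeval _ _
  have h2 : minpoly (ZMod r) α = minpoly (ZMod r) α⁻¹ :=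
    minpoly.eq_of_irreducible_of_monic (minpoly.irreducible hint) h1 (minpoly.monic hint)
  have h3 : IsConjRoot (ZMod r) α⁻¹ α := h2.symm
  rw [isConjRoot_iff_exists_algEquiv] at h3
  obtain ⟨σ, hσ⟩ := h3
  obtain ⟨n, hn⟩ := (FiniteField.bijective_frobeniusAlgEquivOfAlgebraic_pow (ZMod r) K).2 σ
  refine ⟨n, ?_⟩
  rw [← hσ, ← hn]
  have key : ∀ n : ℕ, ((FiniteField.frobeniusAlgEquivOfAlgebraic (ZMod r) K) ^ n) α =
      α ^ r ^ n := by
    intro n
    induction n with
    | zero => simp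
    | succ n ih =>
      rw [pow_succ', AlgEquiv.mul_apply, ih,
        FiniteField.coe_frobeniusAlgEquivOfAlgebraic]
      change (α ^ r ^ n) ^ Fintype.card (ZMod r) = _
      rw [ZMod.card, ← pow_mul, pow_succ]
  exact key n

theorem exists_frob' {K : Type*} [CommRing K] [IsDomain K] [Finite K] {r : ℕ} [Fact r.Prime]
    [CharP K r] {α β : K} (hαβ : α * β = 1)
    (h : ∀ m : (ZMod r)[X], Polynomial.eval₂ (ZMod.castHom (dvd_refl r) K) α m = 0 →
      Polynomial.eval₂ (ZMod.castHom (dvd_refl r) K) β m = 0) : ∃ n : ℕ, β = α ^ r ^ n := by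
  classical
  have := Fintype.ofFinite K
  let _ : Field K := Fintype.fieldOfDomain K
  have hβ : β = α⁻¹ := (inv_eq_of_mul_eq_one_right hαβ).symm
  rw [hβ]
  apply exists_frob
  intro m hm
  rw [← hβ]
  exact h m hm

theorem card_le_of_pow {K : Type*} [CommRing K] [IsDomain K] [Finite K] {N : ℕ} (hN : 1 < N)
    (h : ∀ k : K, k ^ N = k) : Nat.card K ≤ N := by
  classical
  have := Fintype.ofFinite K
  rw [Nat.card_eq_fintype_card]
  obtain ⟨P, hPdef⟩ : ∃ P : K[X], P = X ^ N - X := ⟨_, rfl⟩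
  have hP : P.natDegree = N := by
    rw [hPdef]
    have h1 : (X : K[X]).degree < (X ^ N : K[X]).degree := by
      rw [degree_X, degree_X_pow]
      exact_mod_cast hN
    rw [natDegree_sub_eq_left_of_natDegree_lt, natDegree_X_pow]
    rw [natDegree_X, natDegree_X_pow]
    exact hN
  have hP0 : P ≠ 0 := by
    intro h
    rw [h, natDegree_zero] at hP
    omega
  have h1 : (Finset.univ : Finset K).val ⊆ P.roots := by
    intro k _
    rw [mem_roots hP0, IsRoot, hPdef, eval_sub, eval_pow, eval_X, h, sub_self]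
  have h2 := card_le_degree_of_subset_roots (Z := Finset.univ) h1
  rw [hP] at h2
  exact h2

end Alg

section Mod

variable {F : Type*} [Field F] {V : Type*} [AddCommGroup V] [Module F V]

/-- polynomials in `x` -/
noncomputable def op (x : V ≃ₗ[F] V) (g : F[X]) : V →ₗ[F] V :=
  Polynomial.aeval ((x : V →ₗ[F] V) : Module.End F V) g

theorem op_mul (x : V ≃ₗ[F] V) (g g' : F[X]) (v : V) : op x (g * g') v = op x g (op x g' v) := by
  unfold op
  rw [map_mul]
  rfl

theorem op_add (x : V ≃ₗ[F] V) (g g' : F[X]) (v : V) : op x (g + g') v = op x g v + op x g' v := by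
  unfold op
  rw [map_add]
  rfl

theorem op_sub (x : V ≃ₗ[F] V) (g g' : F[X]) (v : V) : op x (g - g') v = op x g v - op x g' v := by
  unfold op
  rw [map_sub]
  rfl

theorem op_X (x : V ≃ₗ[F] V) (v : V) : op x X v = x v := by
  unfold op
  rw [aeval_X]
  rfl

theorem op_C (x : V ≃ₗ[F] V) (c : F) (v : V) : op x (C c) v = c • v := by
  unfold op
  rw [aeval_C]
  rfl

theorem op_one (x : V ≃ₗ[F] V) (v : V) : op x 1 v = v := by
  unfold op
  rw [map_one]
  rfl

theorem op_zero (x : V ≃ₗ[F] V) (v : V) : op x 0 v = 0 := by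
  unfold op
  rw [map_zero]
  rfl

theorem op_X_pow (x : V ≃ₗ[F] V) (n : ℕ) (v : V) : op x (X ^ n) v = (x ^ n) v := by
  induction n with
  | zero => rw [pow_zero, pow_zero, op_one]; rfl
  | succ n ih =>
    rw [pow_succ', op_mul, ih, op_X, pow_succ']
    rfl

theorem Inv.op {x : V ≃ₗ[F] V} {W : Submodule F V} (h : Inv x W) (g : F[X]) :
    ∀ w ∈ W, op x g w ∈ W := by
  intro w hw
  induction g using Polynomial.induction_on' with
  | add p q hp hq => rw [op_add]; exact W.add_mem hp hq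
  | monomial n c =>
    rw [← C_mul_X_pow_eq_monomial, op_mul, op_C, op_X_pow]
    exact W.smul_mem _ (h.pow n w hw)

theorem op_comm (x : V ≃ₗ[F] V) (g : F[X]) (v : V) : op x g (x v) = x (op x g v) := by
  rw [← op_X x v, ← op_X x (op x g v), ← op_mul, ← op_mul, mul_comm]

/-- the annihilator -/
noncomputable def ann (x : V ≃ₗ[F] V) (T : Submodule F V) : Ideal F[X] where
  carrier := {g | ∀ v ∈ T, op x g v = 0}
  add_mem' := fun {a b} ha hb v hv => by rw [op_add, ha v hv, hb v hv, add_zero]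
  zero_mem' := fun v _ => op_zero x v
  smul_mem' := fun c g hg v hv => by
    rw [smul_eq_mul, op_mul, hg v hv, map_zero]

theorem mem_ann {x : V ≃ₗ[F] V} {T : Submodule F V} {g : F[X]} :
    g ∈ ann x T ↔ ∀ v ∈ T, op x g v = 0 := Iff.rfl

/-- kernel dichotomy -/
theorem IsMin.mem_ann {x : V ≃ₗ[F] V} {T : Submodule F V} (hT : IsMin x T) {g : F[X]} {v : V}
    (hv : v ∈ T) (hv0 : v ≠ 0) (h : op x g v = 0) : g ∈ ann x T := by
  have hS : Inv x (T ⊓ LinearMap.ker (op x g)) := by
    intro w hw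
    refine ⟨hT.inv w hw.1, ?_⟩
    change op x g (x w) = 0
    rw [op_comm, LinearMap.mem_ker.1 hw.2, map_zero]
  have h1 := hT.min _ inf_le_left hS (by
    intro h0
    have : v ∈ T ⊓ LinearMap.ker (op x g) := ⟨hv, LinearMap.mem_ker.2 h⟩
    rw [h0, Submodule.mem_bot] at this
    exact hv0 this)
  intro w hw
  have h2 : w ∈ T ⊓ LinearMap.ker (op x g) := by rw [h1]; exact hw
  exact LinearMap.mem_ker.1 h2.2

theorem IsMin.ann_isPrime {x : V ≃ₗ[F] V} {T : Submodule F V} (hT : IsMin x T) :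
    (ann x T).IsPrime := by
  obtain ⟨v, hv, hv0⟩ := (Submodule.ne_bot_iff T).1 hT.ne
  refine ⟨?_, ?_⟩
  · intro h
    have h1 : (1 : F[X]) ∈ ann x T := by rw [h]; trivial
    have := h1 v hv
    rw [op_one] at this
    exact hv0 this
  · intro g g' h
    by_contra hcon
    push Not at hcon
    obtain ⟨hg, hg'⟩ := hcon
    have h1 : op x g' v ≠ 0 := fun h0 => hg' (hT.mem_ann hv hv0 h0)
    apply hg
    refine hT.mem_ann (hT.inv.op g' v hv) h1 ?_
    rw [← op_mul]
    exact h v hv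

/-- every vector of `T` is a polynomial image of a given one -/
theorem IsMin.exists_op {x : V ≃ₗ[F] V} {T : Submodule F V} (hT : IsMin x T) {v w : V}
    (hv : v ∈ T) (hv0 : v ≠ 0) (hw : w ∈ T) : ∃ g : F[X], op x g v = w := by
  let S : Submodule F V :=
    { carrier := {u | ∃ g : F[X], op x g v = u}
      add_mem' := by
        rintro _ _ ⟨g, rfl⟩ ⟨g', rfl⟩
        exact ⟨g + g', op_add _ _ _ _⟩
      zero_mem' := ⟨0, op_zero _ _⟩
      smul_mem' := by
        rintro c _ ⟨g, rfl⟩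
        exact ⟨C c * g, by rw [op_mul, op_C]⟩ }
  have hS : Inv x S := by
    rintro _ ⟨g, rfl⟩
    exact ⟨X * g, by rw [op_mul, op_X]⟩
  have hST : S ≤ T := by
    rintro _ ⟨g, rfl⟩
    exact hT.inv.op g v hv
  have h1 := hT.min S hST hS (by
    intro h0
    have : v ∈ S := ⟨1, op_one _ _⟩
    rw [h0, Submodule.mem_bot] at this
    exact hv0 this)
  rw [← h1] at hw
  exact hw

/-- The field `F[x]` has the same order as `T`. -/
theorem IsMin.card_quot [Finite V] {x : V ≃ₗ[F] V} {T : Submodule F V} (hT : IsMin x T) :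
    Finite (F[X] ⧸ ann x T) ∧ Nat.card (F[X] ⧸ ann x T) = Nat.card T := by
  obtain ⟨v, hv, hv0⟩ := (Submodule.ne_bot_iff T).1 hT.ne
  let f : (F[X] ⧸ ann x T) → T := fun k => ⟨op x (Quotient.out k) v, hT.inv.op _ v hv⟩
  have hout : ∀ k : F[X] ⧸ ann x T, Ideal.Quotient.mk (ann x T) (Quotient.out k) = k :=
    fun k => Quotient.out_eq k
  have hf : Function.Injective f := by
    intro k k' h
    have h1 : op x (Quotient.out k) v = op x (Quotient.out k') v := congrArg Subtype.val h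
    rw [← hout k, ← hout k', Ideal.Quotient.eq]
    apply hT.mem_ann hv hv0
    rw [op_sub, h1, sub_self]
  have hs : Function.Surjective f := by
    intro t
    obtain ⟨g, hg⟩ := hT.exists_op hv hv0 t.2
    refine ⟨Ideal.Quotient.mk _ g, Subtype.ext ?_⟩
    change op x (Quotient.out (Ideal.Quotient.mk (ann x T) g)) v = t
    have h1 : Quotient.out (Ideal.Quotient.mk (ann x T) g) - g ∈ ann x T := by
      rw [← Ideal.Quotient.eq, hout]
    have h2 := h1 v hv
    rw [op_sub, hg, sub_eq_zero] at h2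
    exact h2
  exact ⟨Finite.of_injective f hf, Nat.card_congr (Equiv.ofBijective f ⟨hf, hs⟩)⟩

/-- the `q ^ i`-th power map is trivial on the field -/
theorem pow_card_sub_mem [Finite F] {p : ℕ} {x : V ≃ₗ[F] V} (hx : x ^ p = 1) {i : ℕ}
    (hi : p ∣ (Nat.card F) ^ i - 1) (T : Submodule F V) (g : F[X]) :
    g ^ (Nat.card F) ^ i - g ∈ ann x T := by
  have := Fintype.ofFinite F
  have hexp : ∀ i : ℕ, expand F ((Nat.card F) ^ i) g = g ^ (Nat.card F) ^ i := by
    intro i
    induction i with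
    | zero => simp
    | succ i ih =>
      rw [pow_succ', expand_mul, ih, map_pow, Nat.card_eq_fintype_card, FiniteField.expand_card,
        ← pow_mul]
  have hxq : x ^ (Nat.card F) ^ i = x := by
    have h1 : 1 ≤ (Nat.card F) ^ i := Nat.one_le_pow _ _ Nat.card_pos
    obtain ⟨c, hc⟩ := hi
    have h2 : (Nat.card F) ^ i = p * c + 1 := by omega
    rw [h2, pow_succ, pow_mul, hx, one_pow, one_mul]
  intro v _
  rw [op_sub, sub_eq_zero, ← hexp]
  unfold op
  rw [expand_aeval]
  congr 2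
  have hpow : ∀ n : ℕ, ((x : V →ₗ[F] V) : Module.End F V) ^ n =
      ((x ^ n : V ≃ₗ[F] V) : V →ₗ[F] V) := by
    intro n
    induction n with
    | zero => rfl
    | succ n ih => rw [pow_succ, ih, pow_succ]; rfl
  rw [hpow, hxq]

/-- **The dimension of a minimal subspace.** -/
theorem IsMin.card_le [Finite F] [Finite V] {p : ℕ} {x : V ≃ₗ[F] V} (hx : x ^ p = 1)
    {T : Submodule F V} (hT : IsMin x T) {i : ℕ} (hi0 : 0 < i)
    (hi : p ∣ (Nat.card F) ^ i - 1) : Nat.card T ≤ (Nat.card F) ^ i := by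
  obtain ⟨hfin, hcard⟩ := hT.card_quot
  have hprime := hT.ann_isPrime
  have hdom : IsDomain (F[X] ⧸ ann x T) := Ideal.Quotient.isDomain _
  rw [← hcard]
  obtain ⟨N, hN⟩ : ∃ N, N = (Nat.card F) ^ i := ⟨_, rfl⟩
  have hN1 : 1 < N := by
    rw [hN]
    exact Nat.one_lt_pow hi0.ne' Finite.one_lt_card
  rw [← hN]
  have hroots : ∀ k : F[X] ⧸ ann x T, k ^ N = k := by
    intro k
    obtain ⟨g, rfl⟩ := Ideal.Quotient.mk_surjective k
    rw [← map_pow, Ideal.Quotient.eq, hN]
    exact pow_card_sub_mem hx hi T g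
  exact card_le_of_pow hN1 hroots

variable {H : HForm F V}

theorem isIso_symm {x : V ≃ₗ[F] V} (hxi : H.IsIso x) {p : ℕ} (hp : 0 < p) (hx : x ^ p = 1)
    (v w : V) : H.h (x v) w = H.h v ((x ^ (p - 1)) w) := by
  have h1 : w = x ((x ^ (p - 1)) w) := by
    have h2 : x * x ^ (p - 1) = 1 := by
      rw [← pow_succ', Nat.sub_add_cancel hp, hx]
    exact (congrArg (fun g : V ≃ₗ[F] V => g w) h2).symm
  conv_lhs => rw [h1]
  rw [hxi]

/-- the adjoint of a polynomial in `x` -/
theorem op_adj {x : V ≃ₗ[F] V} (hxi : H.IsIso x) {p : ℕ} (hp : 0 < p) (hx : x ^ p = 1)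
    (g : F[X]) (v w : V) :
    H.h (op x g v) w = H.h v (op x ((g.map (H.σ : F →+* F)).comp (X ^ (p - 1))) w) := by
  induction g using Polynomial.induction_on' generalizing v w with
  | add g g' h h' =>
    rw [op_add, H.add_left, h, h', Polynomial.map_add, add_comp, op_add, H.add_right]
  | monomial n c =>
    have key : ∀ n : ℕ, ∀ v w, H.h ((x ^ n) v) w = H.h v ((x ^ ((p - 1) * n)) w) := by
      intro n
      induction n with
      | zero => intro v w; rw [mul_zero]; rfl
      | succ n ih =>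
        intro v w
        rw [pow_succ', LinearEquiv.mul_apply, isIso_symm hxi hp hx, ih, mul_add, mul_one,
          pow_add, LinearEquiv.mul_apply]
    rw [← C_mul_X_pow_eq_monomial, op_mul, op_C, op_X_pow, Polynomial.map_mul, map_C,
      Polynomial.map_pow, map_X, mul_comp, C_comp, pow_comp, X_comp, op_mul, op_C, ← pow_mul,
      op_X_pow, H.smul_left, H.smul_right, key]
    congr 1
    exact (H.σσ c).symm

theorem IsMin.nondeg [Finite V] {x : V ≃ₗ[F] V} (hxi : H.IsIso x) {T : Submodule F V}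
    (hT : IsMin x T) (hnd : ∃ v ∈ T, ∃ w ∈ T, H.h v w ≠ 0) :
    ∀ v ∈ T, v ≠ 0 → ∃ w ∈ T, H.h v w ≠ 0 := by
  intro v hv hv0
  by_contra hcon
  push Not at hcon
  rcases hT.inf_eq (perp_inv hxi hT.inv) with h | h
  · have h1 : v ∈ T ⊓ perp H (T : Set V) := ⟨hv, fun w hw => hcon w hw⟩
    rw [h, Submodule.mem_bot] at h1
    exact hv0 h1
  · obtain ⟨v', hv', w, hw, h1⟩ := hnd
    exact h1 (h hv' w hw)

/-- **Nondegenerate minimal subspaces**: `-1` is a power of `r` modulo `p`. -/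
theorem IsMin.exists_neg_one [Finite F] [Finite V] {r : ℕ} [Fact r.Prime] [CharP F r] {p : ℕ}
    (hp : p.Prime) {x : V ≃ₗ[F] V} (hxi : H.IsIso x) (hx : x ^ p = 1) {T : Submodule F V}
    (hT : IsMin x T) (hnd : ∃ v ∈ T, ∃ w ∈ T, H.h v w ≠ 0) (hmov : ∃ v ∈ T, x v ≠ v) :
    ∃ n : ℕ, p ∣ r ^ n + 1 := by
  obtain ⟨hfin, hcard⟩ := hT.card_quot
  have hprime := hT.ann_isPrime
  have hdom : IsDomain (F[X] ⧸ ann x T) := Ideal.Quotient.isDomain _
  have hnd' := hT.nondeg hxi hnd
  let π : F[X] →+* (F[X] ⧸ ann x T) := Ideal.Quotient.mk (ann x T)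
  have hπ : ∀ g, π g = 0 ↔ g ∈ ann x T := fun g => Ideal.Quotient.eq_zero_iff_mem
  have hch : CharP (F[X] ⧸ ann x T) r := by
    have hinj : Function.Injective (π.comp C) := (π.comp C).injective
    exact charP_of_injective_ringHom hinj r
  have hαp : π X ^ p = 1 := by
    rw [← map_pow, ← map_one π, ← sub_eq_zero, ← map_sub, hπ]
    intro v _
    rw [op_sub, op_X_pow, op_one, hx]
    exact sub_self v
  have hα1 : π X ≠ 1 := by
    rw [← map_one π, Ne, ← sub_eq_zero, ← map_sub, hπ]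
    intro h
    obtain ⟨v, hv, hv1⟩ := hmov
    apply hv1
    have := h v hv
    rw [op_sub, op_X, op_one, sub_eq_zero] at this
    exact this
  have hβ : π X * π (X ^ (p - 1)) = 1 := by
    rw [map_pow, ← pow_succ', Nat.sub_add_cancel hp.pos, hαp]
  have hev : ∀ (g : F[X]) (m : (ZMod r)[X]),
      Polynomial.eval₂ (ZMod.castHom (dvd_refl r) (F[X] ⧸ ann x T)) (π g) m =
        π ((m.map (ZMod.castHom (dvd_refl r) F)).comp g) := by
    intro g m
    have h1 : ZMod.castHom (dvd_refl r) (F[X] ⧸ ann x T) =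
        π.comp (C.comp (ZMod.castHom (dvd_refl r) F)) := Subsingleton.elim _ _
    rw [h1, ← Polynomial.hom_eval₂]
    congr 1
    rw [Polynomial.comp, Polynomial.eval₂_map]
  obtain ⟨n, hn⟩ := exists_frob' hβ (by
    intro m hm
    rw [hev, hπ] at hm ⊢
    rw [comp_X] at hm
    intro w hw
    by_contra h0
    obtain ⟨v, hv, h1⟩ := hnd' _ (hT.inv.op _ w hw) h0
    apply h1
    apply H.orth_symm
    have h2 : (m.map (ZMod.castHom (dvd_refl r) F)).map (H.σ : F →+* F) =
        m.map (ZMod.castHom (dvd_refl r) F) := by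
      rw [Polynomial.map_map]
      congr 1
      exact Subsingleton.elim _ _
    have h3 := op_adj hxi hp.pos hx (m.map (ZMod.castHom (dvd_refl r) F)) v w
    rw [h2, hm v hv, H.zero_left] at h3
    exact h3.symm)
  refine ⟨n, ?_⟩
  have h1 : π X ^ (r ^ n + 1) = 1 := by
    rw [pow_succ', ← hn, hβ]
  have := Fact.mk hp
  have h2 : orderOf (π X) = p := orderOf_eq_prime hαp hα1
  rw [← h2]
  exact orderOf_dvd_of_pow_eq_one h1

end Mod

end Cfsg.Agent.H110.Fpr
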