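import Cfsg.Agent.H110.Fpr.TwoMove
import Cfsg.Agent.H110.Fpr.NegOne
import Cfsg.Agent.H110.Fpr.Even

/-!
# Radical data from a nondegenerate minimal subspace
-/

set_option autoImplicit false

namespace Cfsg.Agent.H110.Fpr

open Cfsg.Agent.TitsThree.Siegel Cfsg.Agent.TitsThree.SiegelGen Cfsg.Agent.H398.FPR
open Cfsg.Agent.H409

variable {F : Type*} [Field F] {V : Type*} [AddCommGroup V] [Module F V]
variable {H : HForm F V} {P : PQ H}

/-- the truncation of `x` on a nondegenerate minimal subspace -/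
structure SetupN (P : PQ H) (p : ℕ) (T : Submodule F V) (y : V ≃ₗ[F] V) : Prop where
  mem : y ∈ SG P
  pow : y ^ p = 1
  top : T ⊔ perp H (T : Set V) = ⊤
  orth : ∀ m ∈ T, ∀ v ∈ perp H (T : Set V), H.h m v = 0
  inv : ∀ w ∈ T, y w ∈ T
  fix : ∀ w ∈ perp H (T : Set V), y w = w
  surj : ∀ w ∈ T, ∃ w' ∈ T, y w' - w' = w
  nd : ∀ v ∈ T, v ≠ 0 → ∃ w ∈ T, H.h v w ≠ 0
  nd' : ∀ v ∈ perp H (T : Set V), v ≠ 0 → ∃ w ∈ perp H (T : Set V), H.h v w ≠ 0

theorem exists_setupN [Finite V] {p : ℕ} (hpF : (p : F) ≠ 0)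
    {x : V ≃ₗ[F] V} (hxi : H.IsIso x)
    (hxok : ∀ w c, P.ok w c → P.ok (x w) c) (hx : x ^ p = 1)
    (hK : ∀ y : V ≃ₗ[F] V, H.IsIso y → (∀ w c, P.ok w c → P.ok (y w) c) → y ^ p = 1 →
      y ∈ SG P) (hND : ∀ v : V, v ≠ 0 → ∃ w, H.h v w ≠ 0)
    {T : Submodule F V} (hT : IsMin x T) (hTU : T ≤ movS p x)
    (hnd : ∃ v ∈ T, ∃ w ∈ T, H.h v w ≠ 0) : ∃ y, SetupN P p T y := by
  have hWnd := hT.nondeg hxi hnd
  have hsup := perp_sup hWnd
  have hinf := perp_inf hWnd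
  obtain ⟨y, hy1, hy2⟩ := exists_trunc x (W := T) (M := perp H (T : Set V))
    ⟨disjoint_iff.2 hinf, codisjoint_iff.2 hsup⟩ hT.inv
  have horth : ∀ w ∈ T, ∀ m ∈ perp H (T : Set V), H.h w m = 0 :=
    fun w hw m hm => H.orth_symm (hm w hw)
  have hyi := trunc_iso hxi hsup horth hT.inv hy1 hy2
  have hyok := trunc_ok hxok hsup horth hT.inv hy1 hy2
  have hyp := trunc_pow_eq_one hx hsup hT.inv hy1 hy2
  have hfpf : ∀ v ∈ T, x v = v → v = 0 := fun v hv h => eq_zero_of_mem hpF (hTU hv) h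
  refine ⟨y, hK y hyi hyok hyp, hyp, hsup, horth, ?_, hy2, ?_, hWnd, nd_perp hWnd hND⟩
  · intro w hw
    rw [hy1 w hw]
    exact hT.inv w hw
  · intro w hw
    obtain ⟨w', hw', h⟩ := surj_of_fpf hT.inv hfpf w hw
    refine ⟨w', hw', ?_⟩
    rw [hy1 w' hw']
    exact h

/-- a hyperbolic pair in `T` -/
theorem SetupN.exists_pair {p : ℕ} {T : Submodule F V} {y : V ≃ₗ[F] V} (h : SetupN P p T y)
    {κ : ℕ} (hκ : ∀ A : Submodule F V, κ ≤ Module.finrank F A → ∃ w ∈ A, w ≠ 0 ∧ P.ok w 0)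
    (hdim : κ ≤ Module.finrank F T) :
    ∃ a ∈ T, ∃ a' ∈ T, P.ok a 0 ∧ P.ok a' 0 ∧ H.h a' a ≠ 0 := by
  obtain ⟨e, he, he0, hes⟩ := hκ T hdim
  obtain ⟨f, hf, hfs, hef⟩ := exists_hyp h.nd he hes he0
  refine ⟨e, he, f, hf, hes, hfs, fun h => ?_⟩
  rw [H.orth_symm h] at hef
  exact zero_ne_one hef

/-- **Nondegenerate type.** -/
theorem master_N [Finite V] {r : ℕ} [Fact r.Prime] [CharP F r] {p : ℕ}
    {T : Submodule F V} {y : V ≃ₗ[F] V} (h : SetupN P p T y)
    {κ : ℕ} (hκ1 : 1 ≤ κ)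
    (hκ : ∀ A : Submodule F V, κ ≤ Module.finrank F A → ∃ w ∈ A, w ≠ 0 ∧ P.ok w 0)
    (hlam : ∀ c, P.ok 0 c → ∃ m, c = m - H.ε⁻¹ * H.σ m)
    (hdim : κ ≤ Module.finrank F T) (hND : ∀ v : V, v ≠ 0 → ∃ w, H.h v w ≠ 0)
    (hW : ∃ w ∈ perp H (T : Set V), w ≠ 0 ∧ P.ok w 0) : RadData r p 0 (κ + 1) (SG P) := by
  obtain ⟨a, ha, a', ha', has, has', haa'⟩ := h.exists_pair hκ hdim
  obtain ⟨Tf, hT2, hTs, hTT, hspan, hpair⟩ := exists_family' (P := P) hκ1 h.nd' hW hκ
  have h1 := data_IV_min (r := r) (j := 0) (k := 1) h.mem (by rw [pow_one]; exact h.pow) h.top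
    h.orth h.inv h.fix (by rw [pow_zero, pow_one]; exact h.surj) hlam Tf hT2 hTs hTT hspan hpair
    ha has ha' has' haa' (fun v _ hv0 => hND v hv0)
  refine h1.mono ?_
  rw [Fintype.card_sum, Fintype.card_bool, Fintype.card_fin]
  omega

/-- **Nondegenerate type**, orthogonal groups in characteristic two. -/
theorem sharp_N [Finite V] {r : ℕ} [Fact r.Prime] [CharP F r] {p : ℕ} (hp : p.Prime)
    {T : Submodule F V} {y : V ≃ₗ[F] V} (h : SetupN P p T y)
    (halt : ∀ v, H.h v v = 0)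
    (hκ : ∀ A : Submodule F V, 3 ≤ Module.finrank F A → ∃ w ∈ A, w ≠ 0 ∧ P.ok w 0)
    (hlam : ∀ c, P.ok 0 c → ∃ m, c = m - H.ε⁻¹ * H.σ m)
    (hdim : 3 ≤ Module.finrank F T) (hND : ∀ v : V, v ≠ 0 → ∃ w, H.h v w ≠ 0)
    (hM : ∀ t : ℕ, t ≠ 0 → r ^ t ≡ 1 [MOD p] → 3 * p + 1 ≤ r ^ t)
    (hW : ∃ w ∈ perp H (T : Set V), w ≠ 0 ∧ P.ok w 0) : FprRow (p + 1) 1 p (SG P) := by
  have hfin : Finite (V ≃ₗ[F] V) := Finite.of_injective (fun f : V ≃ₗ[F] V => (f : V → V))
    DFunLike.coe_injective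
  obtain ⟨a, ha, a', ha', has, has', haa'⟩ := h.exists_pair hκ hdim
  obtain ⟨T1, T2, A, h1, h2, h3, h4, h5, h6, hTA, hTA', h7⟩ :=
    witt' (P := P) _ (perp H (T : Set V)) le_rfl h.nd'
  obtain ⟨e, he, f, hf, hef⟩ := h7 hW
  have hAnd := nd_of_witt h.nd' h1 hTA hTA'
  have hA3 : Module.finrank F A < 3 := by
    by_contra hcon
    obtain ⟨w, hw, hw0, hws⟩ := hκ A (by omega)
    exact hw0 (h6 w hw hws)
  rcases Nat.lt_or_ge (Module.finrank F A) 2 with hA2 | hA2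
  · obtain ⟨Tf, hT2, hTs, hTT, hspan, hpair⟩ := exists_family_of (P := P) (κ := 2)
      (A := A) (by omega) h1 h2 h3 h4 h5 hTA hTA' he hf hef
    have h8 := data_IV_min (r := r) (j := 0) (k := 1) h.mem (by rw [pow_one]; exact h.pow) h.top
      h.orth h.inv h.fix (by rw [pow_zero, pow_one]; exact h.surj) hlam Tf hT2 hTs hTT hspan hpair
      ha has ha' has' haa' (fun v _ hv0 => hND v hv0)
    refine (h8.mono (m' := 3) ?_).sharp hp Fact.out (by norm_num) hM
    rw [Fintype.card_sum, Fintype.card_bool, Fintype.card_fin]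
  · obtain ⟨Tf, hT2, hTs, hTT, hspan⟩ := exists_five (P := P) halt (A := A) (by omega) hAnd
      h1 h2 h3 h4 h5 hTA hTA' he hf hef
    refine sharp_IV_five (r := r) (k := 1) hp h.mem (by rw [pow_one]; exact h.pow) h.top
      h.orth h.inv h.fix h.surj hlam Tf hT2 hTs hTT hspan h.nd' ?_ ha has ha' has' haa'
      (fun v _ hv0 => hND v hv0) le_rfl hM
    intro h0
    obtain ⟨w, hw, hw0, -⟩ := hW
    rw [h0, Submodule.mem_bot] at hw
    exact hw0 hw

/-- **Nondegenerate type**, symplectic groups in characteristic two. -/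
theorem master_N2 [Finite F] [Finite V] (hA : Alt2 H) (hPall : ∀ w c, P.ok w c)
    {q : V → F} (hq : IsQ2 H q) (hκ : ∀ q : V → F, IsQ2 H q → ∀ A : Submodule F V,
      3 ≤ Module.finrank F A → ∃ w ∈ A, w ≠ 0 ∧ q w = 0) {p : ℕ} (hp : p.Prime) (hp2 : p ≠ 2)
    {T : Submodule F V} {y : V ≃ₗ[F] V} (h : SetupN P p T y)
    (hdim : 3 ≤ Module.finrank F T) (hND : ∀ v : V, v ≠ 0 → ∃ w, H.h v w ≠ 0)
    (hW : ∃ w ∈ perp H (T : Set V), w ≠ 0) : RadData 2 p 0 3 (SG P) := by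
  have hodd : Odd p := hp.odd_of_ne_two hp2
  have hch : CharP F 2 := CharTwo.of_one_ne_zero_of_two_eq_zero one_ne_zero hA.two
  obtain ⟨hxi, hxok, -⟩ := SG_iso h.mem
  -- the invariant quadratic form
  obtain ⟨q', hq', hq'x⟩ := exists_inv hA hodd h.pow hxi hq
  obtain ⟨e, he, he0, hes⟩ := hκ q' hq' _ hdim
  obtain ⟨f, hf, hfs, hef⟩ := exists_hyp (P := P2 hA hq') h.nd he (hes.symm) he0
  -- the totally isotropic subspaces
  obtain ⟨T1, T1', A, h1, h2, h3, h4, h5, h6, h7⟩ := witt (P := P) _ (perp H (T : Set V)) le_rfl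
    h.nd'
  have hA0 : A = ⊥ := by
    rw [eq_bot_iff]
    intro u hu
    exact (Submodule.mem_bot F).2 (h6 u hu (hPall _ _))
  rw [hA0, sup_bot_eq] at h1
  obtain ⟨w0, hw0, hw0n⟩ := hW
  obtain ⟨u, hu, u', hu', huu', -⟩ := h7 ⟨w0, hw0, hw0n, hPall _ _⟩
  have hTf : T1 ≤ perp H (T : Set V) := by rw [h1]; exact le_sup_left
  have hTf' : T1' ≤ perp H (T : Set V) := by rw [h1]; exact le_sup_right
  have key := data_IV (r := 2) (P := P) (P₁ := P2 hA hq') (j := 0) (k := 1) h.mem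
    (by rw [pow_one]; exact h.pow)
    (fun w c hc => by rw [P2_ok] at hc ⊢; rw [hq'x]; exact hc) (fun w c _ => hPall w c)
    h.top h.orth h.inv h.fix (by rw [pow_zero, pow_one]; exact h.surj)
    (P2_lam hA hq') ![T1, T1', Submodule.span F {u + u'}] ?_ (fun i u _ => hPall _ _) ?_ ?_
    ⟨0, u, hu, 1, u', hu', by rw [huu']; exact one_ne_zero⟩ he hes.symm hf hfs
    (fun h => ?_) ?_ (fun v _ hv0 => hND v hv0)
  · refine key.mono ?_
    rw [Fintype.card_fin]
  · intro i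
    fin_cases i
    · exact hTf
    · exact hTf'
    · change Submodule.span F {u + u'} ≤ perp H (T : Set V)
      rw [Submodule.span_singleton_le_iff_mem]
      exact (perp H (T : Set V)).add_mem (hTf hu) (hTf' hu')
  · intro i
    fin_cases i
    · exact h3
    · exact h5
    · change ∀ y ∈ Submodule.span F {u + u'}, ∀ y' ∈ Submodule.span F {u + u'}, H.h y y' = 0
      refine span_orth ?_
      rintro y rfl y' rfl
      exact hA.alt _
  · conv_lhs => rw [h1]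
    exact sup_le (le_iSup (fun i => (![T1, T1', Submodule.span F {u + u'}] : Fin 3 → _) i) 0)
      (le_iSup (fun i => (![T1, T1', Submodule.span F {u + u'}] : Fin 3 → _) i) 1)
  · rw [H.orth_symm h] at hef
    exact zero_ne_one hef
  · -- all the transvections
    intro D hD
    have key : ∀ a ∈ T, q' a = 0 → Zt P D {0} a := by
      intro a ha haq w c haa haw hw _
      rw [Set.mem_singleton_iff] at hw
      subst hw
      have hRt : ∀ (i : Fin 3) (y : V),
          y ∈ (![T1, T1', Submodule.span F {u + u'}] : Fin 3 → Submodule F V) i →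
          H.h a y = 0 → Rt H D a y := by
        intro i y hy hay
        refine Rt.symm (hA.alt y) haa (H.orth_symm hay) ?_
        intro s hyy hys
        refine hD i (sie_mem_rad hyy hys hy (T.smul_mem _ ha) ?_)
        exact (P2 hA hq').sing_smul (by rw [P2_ok, haq]) s
      have hau : H.h a u = 0 := h.orth a ha u (hTf hu)
      have hau' : H.h a u' = 0 := h.orth a ha u' (hTf' hu')
      have hauu : H.h a (u + u') = 0 := by rw [H.add_right, hau, hau', add_zero]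
      obtain ⟨s, hs⟩ := exists_sq hA.two c
      have hsu : H.h a (s • u) = 0 := by rw [H.smul_right, hau, mul_zero]
      have hsu' : H.h a (s • u') = 0 := by rw [H.smul_right, hau', mul_zero]
      have hsuu : H.h a (s • (u + u')) = 0 := by rw [H.smul_right, hauu, mul_zero]
      have m1 := hRt 0 u hu hau s haa hsu
      have m2 := hRt 1 u' hu' hau' s haa hsu'
      have m3 := hRt 2 (u + u') (Submodule.mem_span_singleton_self _) hauu s haa hsuu
      have m4 := D.mul_mem (D.mul_mem m1 m2) (D.inv_mem m3)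
      rw [H.sie_inv, H.sie_mul, H.sie_mul] at m4
      rwa [H.sie_congr _ _ haa haw rfl (by module : s • u + s • u' + -(s • (u + u')) = 0)
        (c' := c)] at m4
      have e1 : H.h u' u = 1 := by rw [hA.comm u u', huu']
      simp only [H.neg_left, H.neg_right, H.smul_left, H.smul_right, H.add_left, H.add_right,
        hA.alt, huu', e1, hA.eps, hA.sig, inv_one, one_mul, ← hs]
      have h8 := hA.add_self (s * s)
      linear_combination -h8
    exact ⟨key e he hes, key f hf hfs.symm⟩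

end Cfsg.Agent.H110.Fpr
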