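import Cfsg.Agent.H110.Fpr.SharpSp
import Cfsg.Agent.H110.Fpr.FamL

/-!
# The rows of S3578: linear groups
-/

set_option autoImplicit false

namespace Cfsg.Agent.H110.Fpr

open Cfsg.Agent.H398.FPR Cfsg.Agent.H409 Cfsg.Agent.H221.PP Cfsg.Agent.H435.Fpr
open Module (Dual finrank)

section

variable {F : Type*} [Field F] {V : Type*} [AddCommGroup V] [Module F V]

theorem isPGroup_radL {r : ℕ} [CharP F r] (A : Submodule F V) : IsPGroup r (radL A) := by
  rintro ⟨g, hg⟩
  refine ⟨1, Subtype.ext ?_⟩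
  obtain ⟨g1, g2⟩ := mem_radL.1 hg
  have key : ∀ n : ℕ, ∀ v, (g ^ n) v = v + n • (g v - v) := by
    intro n
    induction n with
    | zero => intro v; rw [zero_smul, add_zero]; rfl
    | succ n ih =>
      intro v
      rw [pow_succ', mul_app, ih, app_add]
      have h1 : g (n • (g v - v)) = n • (g v - v) := g1 _ (A.smul_of_tower_mem n (g2 v))
      rw [h1, add_smul, one_smul]
      abel
  rw [pow_one]
  change g ^ r = 1
  apply ext'
  intro v
  rw [key]
  have h1 : (r : ℕ) • (g v - v) = 0 := by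
    rw [← Nat.cast_smul_eq_nsmul F, CharP.cast_eq_zero, zero_smul]
  rw [h1, add_zero]
  rfl

/-- the two radicals -/
theorem lin_pairs [Finite V] {p j k : ℕ} (hp : p.Prime)
    {x : SpecialLinearGroup F V} (hx : x ^ p ^ k = 1) {A B : Submodule F V} (hAB : IsCompl A B)
    (hxA : ∀ v ∈ A, x v ∈ A) (hxB : ∀ v ∈ B, x v = v)
    (hsurj : ∀ v ∈ A, ∃ v' ∈ A, (x ^ p ^ j) v' - v' = v) :
    Pair p j x (radL A) ∧ Pair p j x (radL B) := by
  classical
  have hfin0 : Finite (V ≃ₗ[F] V) := instFin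
  have hfin : Finite (SpecialLinearGroup F V) := inferInstance
  obtain ⟨y, hy⟩ : ∃ y, y = x ^ p ^ j := ⟨_, rfl⟩
  have hxn : ∀ n : ℕ, ∀ v ∈ A, (x ^ n) v ∈ A := by
    intro n
    induction n with
    | zero => intro v hv; exact hv
    | succ n ih => intro v hv; rw [pow_succ, mul_app]; exact ih _ (hxA v hv)
  have hxnB : ∀ n : ℕ, ∀ v ∈ B, (x ^ n) v = v := by
    intro n
    induction n with
    | zero => intro v hv; rfl
    | succ n ih => intro v hv; rw [pow_succ, mul_app, hxB v hv, ih v hv]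
  have hinv : ∃ n : ℕ, x⁻¹ = x ^ n := by
    refine ⟨p ^ k - 1, ?_⟩
    rw [inv_eq_iff_mul_eq_one, ← pow_succ', Nat.sub_add_cancel (Nat.one_le_pow _ _ hp.pos), hx]
  obtain ⟨n, hn⟩ := hinv
  have hAinv : ∀ v ∈ A, x⁻¹ v ∈ A := by rw [hn]; exact hxn n
  have hBinv : ∀ v ∈ B, x⁻¹ v ∈ B := by
    intro v hv
    rw [hn, hxnB n v hv]
    exact hv
  have hxB' : ∀ v ∈ B, x v ∈ B := fun v hv => by rw [hxB v hv]; exact hv
  have hyB : ∀ v ∈ B, y v = v := by rw [hy]; exact hxnB _
  have hyA : ∀ v ∈ A, y v ∈ A := by rw [hy]; exact hxn _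
  rw [← hy] at hsurj
  -- no fixed points on `A`
  have hfpf : ∀ v ∈ A, y v = v → v = 0 := by
    let f : A → A := fun v => ⟨y v - v, A.sub_mem (hyA v v.2) v.2⟩
    have hf : Function.Surjective f := by
      intro v
      obtain ⟨v', hv', h⟩ := hsurj v v.2
      exact ⟨⟨v', hv'⟩, Subtype.ext h⟩
    have hfi := Finite.injective_iff_surjective.2 hf
    intro v hv hyv
    have h1 : f ⟨v, hv⟩ = f 0 := by
      apply Subtype.ext
      change y v - v = y (0 : V) - 0
      rw [hyv, app_zero, sub_self, sub_zero]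
    exact congrArg Subtype.val (hfi h1)
  have hdec : ∀ v : V, ∃ a ∈ A, ∃ b ∈ B, v = a + b := by
    intro v
    have hv : v ∈ A ⊔ B := by rw [hAB.sup_eq_top]; trivial
    obtain ⟨a, ha, b, hb, h⟩ := Submodule.mem_sup.1 hv
    exact ⟨a, ha, b, hb, h.symm⟩
  have hnilp : ∀ A : Submodule F V, Group.IsNilpotent (radL A) := by
    intro A
    letI : CommGroup (radL A) := { (inferInstance : Group (radL A)) with
      mul_comm := fun a b => Subtype.ext
        (show (a : SpecialLinearGroup F V) * b = b * a from radL_comm _ a.2 _ b.2) }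
    exact CommGroup.isNilpotent
  have conjA : ∀ a ∈ radL A, x * a * x⁻¹ ∈ radL A := radL_conj hxA hAinv
  have conjB : ∀ a ∈ radL B, x * a * x⁻¹ ∈ radL B := radL_conj hxB' hBinv
  have nA : x ∈ Subgroup.normalizer (radL A : Set (SpecialLinearGroup F V)) :=
    mem_normalizer_of_conj conjA
  have nB : x ∈ Subgroup.normalizer (radL B : Set (SpecialLinearGroup F V)) :=
    mem_normalizer_of_conj conjB
  have nyA : y ∈ Subgroup.normalizer (radL A : Set (SpecialLinearGroup F V)) := by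
    rw [hy]; exact Subgroup.pow_mem _ nA _
  have nyB : y ∈ Subgroup.normalizer (radL B : Set (SpecialLinearGroup F V)) := by
    rw [hy]; exact Subgroup.pow_mem _ nB _
  constructor
  · refine ⟨hnilp A, nA, ?_⟩
    rw [← hy]
    refine commFull_abel radL_comm
      (fun a ha => (Subgroup.mem_normalizer_iff.1 nyA a).1 ha) ?_
    rintro g ⟨g1, g2⟩ hc
    have hgB : ∀ b ∈ B, g b = b := by
      intro b hb
      have h1 : y (g b) = g b := by
        rw [← mul_app, hc, mul_app, hyB b hb]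
      have h2 := hfpf (g b - b) (g2 b) (by rw [app_sub, h1, hyB b hb])
      exact sub_eq_zero.1 h2
    apply ext'
    intro v
    obtain ⟨a, ha, b, hb, rfl⟩ := hdec v
    rw [app_add, g1 a ha, hgB b hb]
    rfl
  · refine ⟨hnilp B, nB, ?_⟩
    rw [← hy]
    refine commFull_abel radL_comm
      (fun a ha => (Subgroup.mem_normalizer_iff.1 nyB a).1 ha) ?_
    rintro g ⟨g1, g2⟩ hc
    have hgA : ∀ a ∈ A, g a = a := by
      intro a ha
      obtain ⟨a', ha', h⟩ := hsurj a ha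
      rw [← h, app_sub]
      have h1 : g (y a') = y (g a') := by rw [← mul_app, ← hc, mul_app]
      have h2 : g a' = a' + (g a' - a') := by abel
      have h3 : y (g a') = y a' + (g a' - a') := by
        conv_lhs => rw [h2]
        rw [app_add, hyB _ (g2 a')]
      rw [h1, h3]
      abel
    apply ext'
    intro v
    obtain ⟨a, ha, b, hb, rfl⟩ := hdec v
    rw [app_add, hgA a ha, g1 b hb]
    rfl

/-- **The row of S3578 for the linear groups**, from an element. -/
theorem sharp_lin [Finite V] [FiniteDimensional F V] {r : ℕ} [hrp : Fact r.Prime]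
    [CharP F r] {p k : ℕ} (hp : p.Prime)
    (hM : ∀ t : ℕ, t ≠ 0 → r ^ t ≡ 1 [MOD p] → 2 * p + 1 ≤ r ^ t)
    {x : SpecialLinearGroup F V} (hx : x ^ p ^ k = 1) {A B : Submodule F V} (hAB : IsCompl A B)
    (hA0 : A ≠ ⊥) (hB0 : B ≠ ⊥) (hxA : ∀ v ∈ A, x v ∈ A) (hxB : ∀ v ∈ B, x v = v)
    (hsurj : ∀ v ∈ A, ∃ v' ∈ A, x v' - v' = v) :
    FprRow (p + 1) 1 p (SpecialLinearGroup F V) := by
  classical
  have hfin0 : Finite (V ≃ₗ[F] V) := instFin
  have hfin : Finite (SpecialLinearGroup F V) := inferInstance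
  obtain ⟨pA, pB⟩ := lin_pairs (j := 0) hp hx hAB hxA hxB (by
    rw [pow_zero, pow_one]; exact hsurj)
  have hgen : Subgroup.closure ({x} ∪ ⋃ b : Bool, ((cond b (radL A) (radL B) :
      Subgroup (SpecialLinearGroup F V)) : Set (SpecialLinearGroup F V))) = ⊤ := by
    refine lin_gen hAB hA0 hB0 ?_ ?_
    · intro g hg
      apply Subgroup.subset_closure
      right
      rw [Set.mem_iUnion]
      exact ⟨true, hg⟩
    · intro g hg
      apply Subgroup.subset_closure
      right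
      rw [Set.mem_iUnion]
      exact ⟨false, hg⟩
  have h3 := T3M_uGood (M := 2 * p + 1) (by omega) (ι := Bool)
    (fun b => cond b (radL A) (radL B)) (x := x)
    (by rintro (_ | _)
        · exact PairM.of_pair hp hrp.out hx (isPGroup_radL B) pB hM
        · exact PairM.of_pair hp hrp.out hx (isPGroup_radL A) pA hM) hgen
  rw [Fintype.card_bool] at h3
  have h4 := h3.mono (a' := 1) (b' := p + 1) (by omega) (by omega)
  obtain ⟨n, -, hn⟩ := (Nat.dvd_prime_pow hp).1 (orderOf_dvd_of_pow_eq_one hx)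
  intro H hH
  exact ⟨x, ⟨n, hn⟩, h4 H hH⟩

end

section

variable {F : Type*} [Field F] {n : ℕ}

theorem sharp_lin_small [Finite F] (hn : 3 ≤ n) {r : ℕ} [hrp : Fact r.Prime]
    [CharP F r] {p : ℕ} (hp : p.Prime) (hp2 : p ≠ 2) (hpF : (p : F) ≠ 0)
    (hd : p ∣ (Nat.card F) ^ 2 - 1)
    (hM : ∀ t : ℕ, t ≠ 0 → r ^ t ≡ 1 [MOD p] → 2 * p + 1 ≤ r ^ t) :
    FprRow (p + 1) 1 p (SpecialLinearGroup F (Fin n → F)) := by
  classical
  obtain ⟨t, j, k, -, hj0, ht⟩ := exists_good2' (F := F) hp hpF hd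
  obtain rfl := hj0 hp2
  obtain ⟨i0, h0⟩ : ∃ i : Fin n, i = ⟨0, by omega⟩ := ⟨_, rfl⟩
  obtain ⟨i1, h1⟩ : ∃ i : Fin n, i = ⟨1, by omega⟩ := ⟨_, rfl⟩
  obtain ⟨i2, h3⟩ : ∃ i : Fin n, i = ⟨2, by omega⟩ := ⟨_, rfl⟩
  have h01 : i0 ≠ i1 := by rw [h0, h1]; simp
  have h20 : i2 ≠ i0 := by rw [h0, h3]; simp
  have h21 : i2 ≠ i1 := by rw [h1, h3]; simp
  clear h0 h1 h3
  obtain ⟨e, he⟩ : ∃ e : Fin n → (Fin n → F), e = fun i => Pi.single i (1 : F) := ⟨_, rfl⟩
  have eii : ∀ i, e i i = 1 := fun i => by rw [he]; simp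
  have eij : ∀ i j, i ≠ j → e i j = 0 := fun i j h => by rw [he]; simp [h.symm]
  let φ : Fin n → Dual F (Fin n → F) := fun i => LinearMap.proj i
  have hφ : ∀ i v, φ i v = v i := fun i v => rfl
  have k1 : φ i1 ((t - 2) • e i0) = 0 := by
    rw [hφ, Pi.smul_apply, eij _ _ h01, smul_zero]
  have k2 : φ i0 (e i1) = 0 := by rw [hφ, eij _ _ h01.symm]
  obtain ⟨x, hx⟩ : ∃ x, x = tv (φ i1) ((t - 2) • e i0) k1 * tv (φ i0) (e i1) k2 := ⟨_, rfl⟩
  have hxv : ∀ v, x v = v + v i0 • e i1 + ((t - 2) * (v i0 + v i1)) • e i0 := by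
    intro v
    rw [hx]
    simp only [mul_app, tv_apply, hφ, Pi.add_apply, Pi.smul_apply, eii, smul_eq_mul, mul_one]
    module
  let A : Submodule F (Fin n → F) :=
    { carrier := {v | ∀ i, i ≠ i0 → i ≠ i1 → v i = 0}
      add_mem' := fun {a b} ha hb i hi hi' => by rw [Pi.add_apply, ha i hi hi', hb i hi hi', add_zero]
      zero_mem' := fun i _ _ => rfl
      smul_mem' := fun c v hv i hi hi' => by rw [Pi.smul_apply, hv i hi hi', smul_zero] }
  let B : Submodule F (Fin n → F) :=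
    { carrier := {v | v i0 = 0 ∧ v i1 = 0}
      add_mem' := fun {a b} ha hb => ⟨by rw [Pi.add_apply, ha.1, hb.1, add_zero],
        by rw [Pi.add_apply, ha.2, hb.2, add_zero]⟩
      zero_mem' := ⟨rfl, rfl⟩
      smul_mem' := fun c v hv => ⟨by rw [Pi.smul_apply, hv.1, smul_zero],
        by rw [Pi.smul_apply, hv.2, smul_zero]⟩ }
  have eA0 : e i0 ∈ A := fun i hi _ => eij _ _ hi.symm
  have eA1 : e i1 ∈ A := fun i _ hi => eij _ _ hi.symm
  have eB2 : e i2 ∈ B := ⟨eij _ _ h20, eij _ _ h21⟩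
  have hAe : ∀ v ∈ A, v = v i0 • e i0 + v i1 • e i1 := by
    intro v hv
    funext i
    rw [Pi.add_apply, Pi.smul_apply, Pi.smul_apply, smul_eq_mul, smul_eq_mul]
    by_cases hi0 : i = i0
    · rw [hi0, eii, eij _ _ h01.symm]; ring
    · by_cases hi1 : i = i1
      · rw [hi1, eii, eij _ _ h01]; ring
      · rw [hv i hi0 hi1, eij _ _ (Ne.symm hi0), eij _ _ (Ne.symm hi1)]; ring
  have hcompl : IsCompl A B := by
    refine ⟨?_, ?_⟩
    · rw [Submodule.disjoint_def]
      intro v hv hv'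
      rw [hAe v hv, hv'.1, hv'.2, zero_smul, zero_smul, add_zero]
    · rw [codisjoint_iff, eq_top_iff]
      intro v _
      have e1 : v = (v i0 • e i0 + v i1 • e i1) + (v - (v i0 • e i0 + v i1 • e i1)) := by abel
      rw [e1]
      refine Submodule.add_mem_sup (A.add_mem (A.smul_mem _ eA0) (A.smul_mem _ eA1)) ⟨?_, ?_⟩
      · simp only [Pi.sub_apply, Pi.add_apply, Pi.smul_apply, eii, eij _ _ h01.symm, smul_eq_mul]
        ring
      · simp only [Pi.sub_apply, Pi.add_apply, Pi.smul_apply, eii, eij _ _ h01, smul_eq_mul]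
        ring
  have hxA : ∀ v ∈ A, x v ∈ A := by
    intro v hv
    rw [hxv]
    exact A.add_mem (A.add_mem hv (A.smul_mem _ eA1)) (A.smul_mem _ eA0)
  have hxB : ∀ v ∈ B, x v = v := by
    intro v hv
    rw [hxv, hv.1, hv.2]
    simp
  have hquad : IsQuad x.1 A t := by
    refine ⟨hxA, ?_⟩
    intro v hv
    change x (x v) = t • x v - v
    rw [hxv (x v), hxv v]
    conv_lhs => rw [hAe v hv]
    conv_rhs => rw [hAe v hv]
    simp only [Pi.add_apply, Pi.smul_apply, eii, eij _ _ h01, eij _ _ h01.symm, smul_eq_mul,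
      mul_zero, mul_one, add_zero, zero_add]
    module
  have hxp : x ^ p ^ k = 1 := by
    apply Subtype.ext
    have h5 : (x ^ p ^ k).1 = x.1 ^ p ^ k := rfl
    rw [h5]
    apply LinearEquiv.ext
    intro v
    have hv : v ∈ A ⊔ B := by rw [hcompl.sup_eq_top]; trivial
    obtain ⟨a, ha, b, hb, rfl⟩ := Submodule.mem_sup.1 hv
    rw [map_add, hquad.pow_eq ht a ha, pow_fix (W := B) hxB _ b hb]
    rfl
  refine sharp_lin (x := x) (k := k) hp hM hxp hcompl ?_ ?_ hxA hxB ?_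
  · intro h
    rw [h, Submodule.mem_bot] at eA0
    have := congrFun eA0 i0
    rw [eii] at this
    exact one_ne_zero this
  · intro h
    rw [h, Submodule.mem_bot] at eB2
    have := congrFun eB2 i2
    rw [eii] at this
    exact one_ne_zero this
  · intro v hv
    obtain ⟨v', hv', h⟩ := hquad.surj ht v hv
    refine ⟨v', hv', ?_⟩
    rw [pow_zero, pow_one] at h
    exact h

/-- **The row of S3578 for `SL_n(q)`, `n ≥ 3`.** -/
theorem sharp_SL [Finite F] (hn : 3 ≤ n) {r : ℕ} [hrp : Fact r.Prime]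
    [CharP F r] {p : ℕ} (hp : p.Prime) (hp2 : p ≠ 2) (hpF : (p : F) ≠ 0)
    (hM : ∀ t : ℕ, t ≠ 0 → r ^ t ≡ 1 [MOD p] → 2 * p + 1 ≤ r ^ t)
    (hdvd : p ∣ Nat.card (SpecialLinearGroup F (Fin n → F))) :
    FprRow (p + 1) 1 p (SpecialLinearGroup F (Fin n → F)) ∨
      ∀ k, p ∣ Nat.card F ^ k - 1 → n ∣ k := by
  by_cases hd : p ∣ (Nat.card F) ^ 2 - 1
  · exact Or.inl (sharp_lin_small hn hp hp2 hpF hd hM)
  have hfin0 : Finite ((Fin n → F) ≃ₗ[F] (Fin n → F)) := instFin
  have hfin : Finite (SpecialLinearGroup F (Fin n → F)) := inferInstance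
  have := Fact.mk hp
  obtain ⟨x, hx⟩ := exists_prime_orderOf_dvd_card' p hdvd
  have hxp : x ^ p = 1 := by rw [← hx]; exact pow_orderOf_eq_one x
  have hx1 : x.1 ≠ 1 := by
    intro h
    have h2 : x = 1 := Subtype.ext h
    rw [h2, orderOf_one] at hx
    exact hp.one_lt.ne hx
  have hxp' : x.1 ^ p = 1 := congrArg Subtype.val hxp
  have hU0 : movS p x.1 ≠ ⊥ := by
    intro h
    obtain ⟨w, hw, hw1⟩ := exists_moved hpF hxp' hx1
    rw [h, Submodule.mem_bot] at hw
    exact hw1 (by rw [hw, map_zero])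
  obtain ⟨T, hTU, hT⟩ := exists_isMin (x := x.1) (movS_inv rfl) hU0
  have hfpf : ∀ v ∈ T, x.1 v = v → v = 0 := fun v hv h => eq_zero_of_mem hpF (hTU hv) h
  have hmov : ∃ v ∈ T, x.1 v ≠ v := by
    obtain ⟨v, hv, hv0⟩ := (Submodule.ne_bot_iff T).1 hT.ne
    exact ⟨v, hv, fun h => hv0 (hfpf v hv h)⟩
  obtain ⟨C, -, hCi, hC1, hC2⟩ := exists_compl hp hpF hxp' hT.inv
    (show Inv x.1 (⊤ : Submodule F (Fin n → F)) from fun _ _ => trivial) le_top
  by_cases hC0 : C = ⊥
  · right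
    intro k hk
    have h1 := hT.finrank_dvd hp hxp' hmov hpF hk
    rw [hC0, sup_bot_eq] at hC2
    rwa [hC2, finrank_top, Module.finrank_fintype_fun_eq_card, Fintype.card_fin] at h1
  · left
    have hcompl : IsCompl T C := ⟨disjoint_iff.2 hC1, codisjoint_iff.2 hC2⟩
    obtain ⟨y, hy1, hy2⟩ := exists_trunc x.1 hcompl hT.inv
    have hyp := trunc_pow_eq_one hxp' hC2 hT.inv hy1 hy2
    have hdet : LinearEquiv.det y = 1 := by
      have h1 : (LinearEquiv.det y) ^ p = 1 := by rw [← map_pow, hyp, map_one]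
      have h2 : (LinearEquiv.det y) ^ (Nat.card F - 1) = 1 := by
        classical
        have := Fintype.ofFinite F
        have h3 : Nat.card F - 1 = Fintype.card Fˣ := by
          rw [Nat.card_eq_fintype_card, Fintype.card_units]
        rw [h3]
        exact pow_card_eq_one
      have h3 : orderOf (LinearEquiv.det y) ∣ p := orderOf_dvd_of_pow_eq_one h1
      have h4 : orderOf (LinearEquiv.det y) ∣ Nat.card F - 1 := orderOf_dvd_of_pow_eq_one h2
      rcases (Nat.dvd_prime hp).1 h3 with h5 | h5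
      · exact orderOf_eq_one_iff.1 h5
      · exfalso
        rw [h5] at h4
        apply hd
        have := Nat.sub_dvd_pow_sub_pow (Nat.card F) 1 2
        rw [one_pow] at this
        exact h4.trans this
    obtain ⟨z, hz⟩ : ∃ z : SpecialLinearGroup F (Fin n → F), z.1 = y := ⟨⟨y, hdet⟩, rfl⟩
    have hzv : ∀ v, z v = y v := by
      intro v
      rw [← hz]
    refine sharp_lin (x := z) (k := 1) hp hM ?_ hcompl hT.ne hC0 ?_ ?_ ?_
    · apply Subtype.ext
      have h5 : (z ^ p ^ 1).1 = z.1 ^ p := by rw [pow_one]; rfl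
      rw [h5, hz, hyp]
      rfl
    · intro v hv
      rw [hzv, hy1 v hv]
      exact hT.inv v hv
    · intro v hv
      rw [hzv]
      exact hy2 v hv
    · intro v hv
      obtain ⟨w, hw, h⟩ := surj_of_fpf hT.inv hfpf v hv
      refine ⟨w, hw, ?_⟩
      rw [hzv, hy1 w hw]
      exact h

/-- **The row of S3578 for `PSL_n(q)`, `n ≥ 3`.** -/
theorem sharp_PSL [Finite F] (hn : 3 ≤ n) {r : ℕ} [hrp : Fact r.Prime]
    [CharP F r] {p : ℕ} (hp : p.Prime) (hp2 : p ≠ 2) (hpF : (p : F) ≠ 0)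
    (hM : ∀ t : ℕ, t ≠ 0 → r ^ t ≡ 1 [MOD p] → 2 * p + 1 ≤ r ^ t)
    (hdvd : p ∣ Nat.card (Matrix.ProjectiveSpecialLinearGroup (Fin n) F)) :
    FprRow (p + 1) 1 p (Matrix.ProjectiveSpecialLinearGroup (Fin n) F) ∨
      ∀ k, p ∣ Nat.card F ^ k - 1 → n ∣ k := by
  have hfin0 : Finite ((Fin n → F) ≃ₗ[F] (Fin n → F)) := instFin
  have hfin : Finite (SpecialLinearGroup F (Fin n → F)) := inferInstance
  let e : SpecialLinearGroup F (Fin n → F) ≃* Matrix.SpecialLinearGroup (Fin n) F :=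
    Matrix.SpecialLinearGroup.toLin'_equiv.symm
  let f : SpecialLinearGroup F (Fin n → F) →* Matrix.ProjectiveSpecialLinearGroup (Fin n) F :=
    (QuotientGroup.mk' (Subgroup.center (Matrix.SpecialLinearGroup (Fin n) F))).comp e.toMonoidHom
  have hf : Function.Surjective f := (QuotientGroup.mk'_surjective _).comp e.surjective
  refine (sharp_SL hn hp hp2 hpF hM (hdvd.trans ?_)).imp_left (FprRow.of_surjective hp f hf)
  exact Subgroup.card_dvd_of_surjective f hf

end

end Cfsg.Agent.H110.Fpr
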