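import Cfsg.Agent.H110.Fpr.SharpSp
import Cfsg.Agent.LieClassical.GUOrder

/-!
# The rows of S3578: unitary groups
-/

set_option autoImplicit false

namespace Cfsg.Agent.H110.Fpr

open Cfsg Cfsg.Agent.LieClassical.HermBasic Cfsg.Agent.LieClassical.HermSiegel
open Cfsg.Agent.LieClassical.HermGen
open Cfsg.Agent.TitsThree.Siegel Cfsg.Agent.TitsThree.SiegelGen Cfsg.Agent.TitsThree.KSideU
open Cfsg.Agent.H398.FPR Cfsg.Agent.H409

/-- powers of the Frobenius map acting trivially -/
theorem frob_fix {F : Type*} [Field F] [Finite F] {r N n : ℕ} (hr : r.Prime)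
    (hN : Nat.card F = r ^ N) (h : ∀ c : F, c ^ r ^ n = c) : N ∣ n := by
  have := Fintype.ofFinite F
  classical
  obtain ⟨g, hg⟩ := IsCyclic.exists_generator (α := Fˣ)
  have ho : orderOf g = r ^ N - 1 := by
    rw [orderOf_eq_card_of_forall_mem_zpowers hg, Nat.card_eq_fintype_card, Fintype.card_units,
      ← Nat.card_eq_fintype_card, hN]
  have h1 : r ^ N - 1 ∣ r ^ n - 1 := by
    rw [← ho]
    apply orderOf_dvd_of_pow_eq_one
    apply Units.ext
    have h2 := h g
    have h3 : (g : F) ^ (r ^ n - 1) * g = 1 * g := by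
      rw [← pow_succ, Nat.sub_add_cancel (Nat.one_le_pow _ _ hr.pos), h2, one_mul]
    rw [Units.val_pow_eq_pow_val, Units.val_one]
    exact mul_right_cancel₀ g.ne_zero h3
  have h2 := Nat.mod_eq_zero_of_dvd h1
  rw [Nat.pow_sub_one_mod_pow_sub_one] at h2
  apply Nat.dvd_of_mod_eq_zero
  by_contra h3
  have h4 : 1 < r ^ (n % N) := Nat.one_lt_pow h3 hr.one_lt
  omega

theorem frob_eq {F : Type*} [Field F] [Finite F] {r N i j : ℕ} (hr : r.Prime)
    (hN : Nat.card F = r ^ N) [CharP F r] (h : ∀ c : F, c ^ r ^ i = c ^ r ^ j) (hij : i ≤ j) :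
    N ∣ j - i := by
  have := Fact.mk hr
  apply frob_fix hr hN
  intro c
  have h1 := h c
  have h2 : (c ^ r ^ (j - i)) ^ r ^ i = c ^ r ^ i := by
    rw [← pow_mul, ← pow_add, Nat.sub_add_cancel hij, h1]
  have h3 : Function.Injective (iterateFrobenius F r i) := iterateFrobenius_inj F r i
  exact h3 h2

variable {F : Type*} [Field F] [Fintype F] {q N : ℕ}

theorem mem_SG_of_pow (hF : Fintype.card F = q ^ 2) (hN : 3 ≤ N) {p : ℕ} (hp : p.Prime)
    (hpq : ¬ p ∣ q + 1) {y : (Fin N → F) ≃ₗ[F] (Fin N → F)} (hy : (HU hF N).IsIso y)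
    (hyp : y ^ p = 1) : y ∈ SG (PU hF N) := by
  rw [SG_PU hF hN]
  obtain ⟨M, hM⟩ : ∃ M, M = LinearMap.toMatrix' (y : (Fin N → F) →ₗ[F] (Fin N → F)) := ⟨_, rfl⟩
  have hMv : ∀ v, Matrix.mulVec M v = y v := by
    intro v
    rw [hM, LinearMap.toMatrix'_mulVec]
    rfl
  have hiso : ∀ u v : Fin N → F, hermForm N F q (Matrix.mulVec M u) (Matrix.mulVec M v) =
      hermForm N F q u v := by
    intro u v
    rw [hMv, hMv]
    exact hy u v
  have h1 := Cfsg.Agent.LieClassical.GUOrder.det_mul_frob_det hF M hiso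
  have hpow : M ^ p = 1 := by
    have h2 : ∀ n : ℕ, M ^ n = LinearMap.toMatrix' ((y ^ n : (Fin N → F) ≃ₗ[F] (Fin N → F)) :
        (Fin N → F) →ₗ[F] (Fin N → F)) := by
      intro n
      induction n with
      | zero =>
        rw [pow_zero, pow_zero]
        exact LinearMap.toMatrix'_one.symm
      | succ n ih =>
        rw [pow_succ, ih, hM, ← LinearMap.toMatrix'_mul, pow_succ]
        rfl
    rw [h2, hyp]
    exact LinearMap.toMatrix'_one
  have h2 : M.det ^ p = 1 := by
    rw [← Matrix.det_pow, hpow, Matrix.det_one]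
  have hdet : M.det = 1 := by
    have h3 : orderOf M.det ∣ p := orderOf_dvd_of_pow_eq_one h2
    have h4 : orderOf M.det ∣ q + 1 := orderOf_dvd_of_pow_eq_one h1
    rcases (Nat.dvd_prime hp).1 h3 with h5 | h5
    · exact orderOf_eq_one_iff.1 h5
    · rw [h5] at h4
      exact absurd h4 hpq
  refine ⟨mkSU M hdet hiso, ?_⟩
  apply LinearEquiv.ext
  intro v
  rw [toLin_apply, act_def, mat_mkSU]
  exact hMv v

/-- parity of the dimension -/
theorem odd_of_conj (hF : Fintype.card F = q ^ 2) {r : ℕ} [hrp : Fact r.Prime] [CharP F r]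
    {p : ℕ} {n : ℕ} (hn : p ∣ r ^ n + 1)
    (hc : ∀ c : F, c ^ q = c ^ r ^ n) : Odd (orderOf ((Nat.card F : ℕ) : ZMod p)) := by
  obtain ⟨a, ha⟩ : ∃ a, q = r ^ a := by
    obtain ⟨k, -, hk⟩ := FiniteField.card F r
    have h1 : q ∣ r ^ (k : ℕ) := by
      rw [← hk, hF]
      exact dvd_pow_self q (by norm_num)
    obtain ⟨a, -, ha⟩ := (Nat.dvd_prime_pow hrp.out).1 h1
    exact ⟨a, ha⟩
  have hcF : Nat.card F = q ^ 2 := by rw [Nat.card_eq_fintype_card, hF]
  have hcF' : Nat.card F = r ^ (2 * a) := by rw [hcF, ha, ← pow_mul, mul_comm]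
  have ha0 : a ≠ 0 := by
    rintro rfl
    have h1 : 1 < Nat.card F := Finite.one_lt_card
    rw [hcF', mul_zero, pow_zero] at h1
    exact lt_irrefl _ h1
  -- `n ≡ a` modulo `2 a`
  obtain ⟨k, hk⟩ : ∃ k, n = a * (2 * k + 1) ∨ (n < a ∧ 2 * a ∣ a - n) := by
    rcases le_total a n with h1 | h1
    · have h2 := frob_eq (r := r) hrp.out hcF' (i := a) (j := n)
        (fun c => by rw [← ha]; exact hc c) h1
      obtain ⟨k, hk⟩ := h2
      refine ⟨k, Or.inl ?_⟩
      have : n = 2 * a * k + a := by omega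
      rw [this]; ring
    · have h2 := frob_eq (r := r) hrp.out hcF' (i := n) (j := a)
        (fun c => by rw [← ha]; exact (hc c).symm) h1
      rcases Nat.eq_or_lt_of_le h1 with h3 | h3
      · exact ⟨0, Or.inl (by rw [h3]; ring)⟩
      · exact ⟨0, Or.inr ⟨h3, h2⟩⟩
  have hk' : n = a * (2 * k + 1) := by
    rcases hk with h | ⟨h1, h2⟩
    · exact h
    · have := Nat.le_of_dvd (by omega) h2
      omega
  have h1 : ((Nat.card F : ℕ) : ZMod p) ^ (2 * k + 1) = 1 := by
    have h2 := dvd_pow_add_one_iff.1 hn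
    rw [hk', pow_mul] at h2
    rw [hcF', Nat.cast_pow, mul_comm 2 a, pow_mul, ← pow_mul, mul_comm 2, pow_mul, h2, neg_one_sq]
  exact Odd.of_dvd_nat ⟨k, rfl⟩ (orderOf_dvd_of_pow_eq_one h1)

/-- **The row of S3578 for the unitary groups**, Siegel form. -/
theorem sharp_SGU (hF : Fintype.card F = q ^ 2) (hN : 4 ≤ N) {r : ℕ}
    [hrp : Fact r.Prime] [hr : CharP F r] {p : ℕ} (hp : p.Prime)
    (hp2 : p ≠ 2) (hpF : (p : F) ≠ 0)
    (hM : ∀ t : ℕ, t ≠ 0 → r ^ t ≡ 1 [MOD p] → 2 * p + 1 ≤ r ^ t)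
    (hdvd : p ∣ Nat.card (SG (PU hF N))) :
    FprRow (p + 1) 1 p (SG (PU hF N)) ∨ ∃ e, Odd e ∧ (N = e ∨ N = e + 1) ∧
      ∀ k, p ∣ Nat.card F ^ k - 1 → e ∣ k := by
  have hfin : Finite ((Fin N → F) ≃ₗ[F] (Fin N → F)) := instFin
  have hcardF := not_dvd_card hp hpF
  have hcF : Nat.card F = q ^ 2 := by rw [Nat.card_eq_fintype_card, hF]
  have hq1 : 1 ≤ q := q_pos hF
  have hpq : ¬ p ∣ q := by
    intro h
    apply hcardF
    rw [hcF]
    exact dvd_pow h two_ne_zero
  by_cases hd : p ∣ q ^ 2 - 1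
  · left
    rcases Nat.lt_or_ge N 5 with h5 | h5
    · have h4 : N = 4 := by omega
      subst h4
      obtain ⟨t', j, k, hj, hj0, ht'⟩ := exists_good2' (F := fixF hF) hp (by
        intro h
        apply hpF
        have := congrArg (fun z : fixF hF => (z : F)) h
        simpa using this) (by rw [card_fixF]; exact hd)
      obtain rfl := hj0 hp2
      have ht := ht'.map (fixF hF).subtype
      obtain ⟨t, htdef⟩ : ∃ t, t = (fixF hF).subtype t' := ⟨_, rfl⟩
      rw [← htdef] at ht
      have htq : t ^ q = t := by rw [htdef]; exact t'.2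
      obtain ⟨W, hW⟩ := exists_wframe_even hF (N := 4) (m := 2) rfl
      obtain ⟨c, hc0, hc⟩ := exists_trace_zero_ne hF
      have hok : ∀ c : F, (PU hF 4).ok 0 c ↔ c + c ^ q = 0 := by
        intro c
        rw [ok_iff, herm_zero_left, neg_zero]
      have h2q : (2 : F) ^ q = 2 := by
        have : (2 : F) = 1 + 1 := by norm_num
        rw [this, add_pow_q hF, one_pow]
      refine (data_IV_explicit (r := r) (P := PU hF 4) ht (W.e_sing 0) (W.f_sing 0)
        (by rw [W.ef, if_pos rfl]) (b := (t - 2) / c) (c := c) ?_ ((hok c).2 hc) ?_ (lam_PU hF)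
        (T := Submodule.span F {W.e 1}) (T' := Submodule.span F {W.f 1}) ?_ ?_ ?_ ?_ ?_
        ⟨W.e 1, Submodule.mem_span_singleton_self _, W.f 1, Submodule.mem_span_singleton_self _,
          by rw [W.ef, if_pos rfl]; exact one_ne_zero⟩ (fun v _ hv => nd_HU hF v hv)).sharp
          hp hrp.out (by norm_num) hM
      · rw [hok, div_pow, sub_pow_q hF, htq, h2q]
        have h1 : c ^ q = -c := by linear_combination hc
        rw [h1]
        field_simp
        ring
      · rw [HU_ε, one_mul, div_mul_cancel₀ _ hc0]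
      · apply le_antisymm
        · intro v hv
          obtain ⟨a, b, w, hw, hvw⟩ := W.span v
          rw [hW, Submodule.mem_bot] at hw
          have h1 : (HU hF 4).h v (W.e 0) = 0 := hv _ (by simp)
          have h2 : (HU hF 4).h v (W.f 0) = 0 := hv _ (by simp)
          rw [hw, add_zero, Fin.sum_univ_two, Fin.sum_univ_two] at hvw
          simp only [hvw, HForm.add_left, HForm.smul_left, W.ee, W.fe, W.ef, W.ff, Fin.isValue,
            one_ne_zero, if_false, if_true, mul_zero, add_zero, zero_add, HU_ε, mul_one] at h1 h2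
          rw [hvw, h1, h2, zero_smul, zero_smul, zero_add, zero_add]
          exact Submodule.add_mem_sup (Submodule.smul_mem _ _ (Submodule.mem_span_singleton_self _))
            (Submodule.smul_mem _ _ (Submodule.mem_span_singleton_self _))
        · refine sup_le ?_ ?_
          · rw [Submodule.span_singleton_le_iff_mem]
            rintro u (rfl | rfl)
            · exact W.ee _ _
            · rw [W.ef, if_neg (by decide)]
          · rw [Submodule.span_singleton_le_iff_mem]
            rintro u (rfl | rfl)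
            · rw [W.fe, if_neg (by decide)]
            · exact W.ff _ _
      · exact span_sing (by rintro u rfl v rfl; exact W.ee _ _)
          (by rintro u rfl; exact W.e_sing _)
      · exact span_orth (by rintro u rfl v rfl; exact W.ee _ _)
      · exact span_sing (by rintro u rfl v rfl; exact W.ff _ _)
          (by rintro u rfl; exact W.f_sing _)
      · exact span_orth (by rintro u rfl v rfl; exact W.ff _ _)
    · obtain ⟨j, -, hj0, hD⟩ := data_small (r := r) hp hpF (by
        rw [hcF]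
        have := Nat.sub_dvd_pow_sub_pow (q ^ 2) 1 2
        rw [one_pow] at this
        exact hd.trans this) (κ := 2) (by norm_num)
        (fun A hA => exists_iso_mem hF A hA) (nd_HU hF) (P := PU hF N) (by
          rw [Module.finrank_fintype_fun_eq_card, Fintype.card_fin]; exact h5)
      obtain rfl := hj0 hp2
      exact hD.sharp hp hrp.out (by norm_num) hM
  · have hp5 : 5 ≤ p := by
      by_contra hlt
      push Not at hlt
      exact hd (two_three_dvd hp hlt hpq hq1)
    have hpq1 : ¬ p ∣ q + 1 := by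
      intro h
      apply hd
      have h2 : q ^ 2 - 1 = (q - 1) * (q + 1) := by
        obtain ⟨k, hk⟩ := Nat.exists_eq_add_of_le hq1
        rw [hk]
        have : (1 + k) ^ 2 = k * (1 + k + 1) + 1 := by ring
        rw [this, Nat.add_sub_cancel, Nat.add_sub_cancel_left]
      rw [h2]
      exact Dvd.dvd.mul_left h _
    obtain ⟨x, hxK, hxp, hx1⟩ := exists_order_p hp hdvd
    obtain ⟨hxi, hxok, -⟩ := SG_iso hxK
    obtain ⟨c0, hc0, hc0'⟩ := exists_ok_ne hF (N := N)
    rcases dich (r := r) hp hp2 hpF hxi hxok hxp hx1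
      (fun y hy _ hyp => mem_SG_of_pow hF (by omega) hp hpq1 hy hyp) (nd_HU hF)
      (Or.inr ⟨c0, hc0', hc0⟩) with h | ⟨T, y, hT, hmov, hTnd, hy⟩
    · exact Or.inl (h.sharp hp hrp.out (by norm_num) hM)
    · obtain ⟨n, hn, hσ⟩ := hT.exists_conj (r := r) hp hxi hxp hTnd hmov
      have hdim : 2 ≤ Module.finrank F T := by
        apply hT.le_finrank hp hxp hmov hpF
        intro i hi hi2 h
        have h1 : i = 1 := by omega
        rw [h1, pow_one, hcF] at h
        exact hd h
      by_cases hW : ∃ w ∈ perp (HU hF N) (T : Set (Fin N → F)), w ≠ 0 ∧ (PU hF N).ok w 0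
      · left
        exact (master_N (r := r) hy (by norm_num) (fun A hA => exists_iso_mem hF A hA)
          (lam_PU hF) hdim (nd_HU hF) hW).sharp hp hrp.out (by norm_num)
          (fun t ht h => (num_N hp hp5 hrp.out ⟨n, hn⟩ ht h).1)
      · right
        refine ⟨Module.finrank F T, ?_, ?_, ?_⟩
        · rw [hT.finrank_eq hp hxp hmov hpF]
          exact odd_of_conj hF hn (fun c => by rw [← hσ c, HU_σ])
        · have h2 := finrank_add_perp hy.top hy.nd
          rw [Module.finrank_fintype_fun_eq_card, Fintype.card_fin] at h2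
          have h3 : Module.finrank F (perp (HU hF N) (T : Set (Fin N → F))) < 2 := by
            by_contra h4
            obtain ⟨w, hw, hw0, hws⟩ := exists_iso_mem hF _ (not_lt.1 h4)
            exact hW ⟨w, hw, hw0, hws⟩
          omega
        · intro k hk
          exact hT.finrank_dvd hp hxp hmov hpF hk

/-- **The row of S3578 for `PSU_n(q)`, `n ≥ 4`.** -/
theorem sharp_PSU (hF : Fintype.card F = q ^ 2) (hN : 4 ≤ N) {r : ℕ}
    [hrp : Fact r.Prime] [hr : CharP F r] {p : ℕ} (hp : p.Prime)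
    (hp2 : p ≠ 2) (hpF : (p : F) ≠ 0)
    (hM : ∀ t : ℕ, t ≠ 0 → r ^ t ≡ 1 [MOD p] → 2 * p + 1 ≤ r ^ t)
    (hdvd : p ∣ Nat.card (PSU N F q)) :
    FprRow (p + 1) 1 p (PSU N F q) ∨ ∃ e, Odd e ∧ (N = e ∨ N = e + 1) ∧
      ∀ k, p ∣ Nat.card F ^ k - 1 → e ∣ k := by
  have hfin : Finite ((Fin N → F) ≃ₗ[F] (Fin N → F)) := instFin
  have e : SG (PU hF N) ≃* SU N F q :=
    ((MonoidHom.ofInjective (toLin_injective (F := F) (q := q) (N := N))).trans
      (MulEquiv.subgroupCongr (SG_PU hF (by omega)).symm)).symm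
  let f : SG (PU hF N) →* PSU N F q :=
    (QuotientGroup.mk' (Subgroup.center (SU N F q))).comp e.toMonoidHom
  have hf : Function.Surjective f := (QuotientGroup.mk'_surjective _).comp e.surjective
  refine (sharp_SGU hF hN hp hp2 hpF hM (hdvd.trans ?_)).imp_left
    (FprRow.of_surjective hp f hf)
  exact Subgroup.card_dvd_of_surjective f hf

end Cfsg.Agent.H110.Fpr
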