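import Cfsg.Agent.H110.Fpr.Fam5

/-!
# Families where every fixed point is moved by two radicals
-/

set_option autoImplicit false
open Subgroup MulAction

namespace Cfsg.Agent.H110.Fpr

open Cfsg.Agent.H398.FPR Cfsg.Agent.H409 Cfsg.Agent.H435.Fpr
open Cfsg.Agent.TitsThree.Siegel Cfsg.Agent.TitsThree.SiegelGen

section Abs

variable {G X : Type*} [Group G] [MulAction G X]

/-- **T3**, every fixed point of `x` is moved by two of the subgroups. -/
theorem T3_two [Finite G] [Finite X] {M c : ℕ} (hM : 1 ≤ M) {x : G} {ι : Type*} [Fintype ι]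
    (hc : Fintype.card ι = c + 2) (R : ι → Subgroup G) (h : ∀ i, PairM M x (R i))
    (hf : ∀ z ∈ fixedBy X x, ∀ i0, ∃ i, i ≠ i0 ∧ z ∉ fs (R i) X) :
    (2 * M + c) * Nat.card (fixedBy X x) ≤ (c + 2) * Nat.card X := by
  classical
  have := Fintype.ofFinite X
  have hne : Nonempty ι := Fintype.card_pos_iff.1 (by omega)
  obtain ⟨i1⟩ := hne
  set f := (fixedBy X x).ncard with hfdef
  rw [Nat.card_coe_set_eq]
  have h1 : ∀ i, M * (fixedBy X x \ fs (R i) X).ncard + (fixedBy X x ∩ fs (R i) X).ncard ≤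
      Nat.card X := by
    intro i
    have h2 := (h i).bound (X := X)
    have h3 : (fixedBy X x ∩ fs (R i) X).ncard ≤ (fs (R i) X).ncard :=
      Set.ncard_le_ncard Set.inter_subset_right (Set.toFinite _)
    omega
  have h2 : ∀ i, (fixedBy X x \ fs (R i) X).ncard + (fixedBy X x ∩ fs (R i) X).ncard = f :=
    fun i => by rw [add_comm]; exact Set.ncard_inter_add_ncard_sdiff_eq_ncard _ _ (Set.toFinite _)
  have h3 : 2 * f ≤ ∑ i, (fixedBy X x \ fs (R i) X).ncard := by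
    have e1 : ∀ i, (fixedBy X x \ fs (R i) X).ncard =
        ∑ z ∈ (fixedBy X x).toFinset, if z ∉ fs (R i) X then 1 else 0 := by
      intro i
      rw [← Finset.card_filter, Set.ncard_eq_toFinset_card']
      congr 1
      ext z
      simp
    rw [Finset.sum_congr rfl (fun i _ => e1 i), Finset.sum_comm]
    have e2 : 2 * f = ∑ z ∈ (fixedBy X x).toFinset, 2 := by
      rw [Finset.sum_const, hfdef, Set.ncard_eq_toFinset_card', smul_eq_mul, mul_comm]
    rw [e2]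
    apply Finset.sum_le_sum
    intro z hz
    rw [Set.mem_toFinset] at hz
    obtain ⟨a, -, ha⟩ := hf z hz i1
    obtain ⟨b, hb1, hb⟩ := hf z hz a
    rw [← Finset.card_filter]
    have h4 : ({a, b} : Finset ι) ⊆ Finset.univ.filter (fun i => z ∉ fs (R i) X) := by
      intro i hi
      rw [Finset.mem_insert, Finset.mem_singleton] at hi
      rw [Finset.mem_filter]
      rcases hi with rfl | rfl
      · exact ⟨Finset.mem_univ _, ha⟩
      · exact ⟨Finset.mem_univ _, hb⟩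
    have h5 := Finset.card_le_card h4
    rwa [Finset.card_pair (Ne.symm hb1)] at h5
  have h5 : ∑ i : ι, (M * (fixedBy X x \ fs (R i) X).ncard + (fixedBy X x ∩ fs (R i) X).ncard) ≤
      ∑ i : ι, Nat.card X := Finset.sum_le_sum fun i _ => h1 i
  rw [Finset.sum_add_distrib, ← Finset.mul_sum, Finset.sum_const, Finset.card_univ,
    smul_eq_mul] at h5
  have h6 : ∑ i : ι, ((fixedBy X x \ fs (R i) X).ncard + (fixedBy X x ∩ fs (R i) X).ncard) =
      ∑ i : ι, f := Finset.sum_congr rfl fun i _ => h2 i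
  rw [Finset.sum_add_distrib, Finset.sum_const, Finset.card_univ, smul_eq_mul] at h6
  set B := ∑ i : ι, (fixedBy X x \ fs (R i) X).ncard
  set A := ∑ i : ι, (fixedBy X x ∩ fs (R i) X).ncard
  rw [hc] at h5 h6
  obtain ⟨d, hd⟩ := Nat.exists_eq_add_of_le h3
  have hA : A + d = c * f := by
    have : (c + 2) * f = c * f + 2 * f := by ring
    omega
  have h7 : M * B = 2 * (M * f) + M * d := by rw [hd, mul_add]; ring
  have h8 : d ≤ M * d := Nat.le_mul_of_pos_left _ (by omega)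
  calc (2 * M + c) * f = 2 * (M * f) + c * f := by ring
    _ = 2 * (M * f) + (A + d) := by rw [hA]
    _ ≤ 2 * (M * f) + M * d + A := by omega
    _ = M * B + A := by rw [h7]
    _ ≤ _ := h5

end Abs

section

variable {F : Type*} [Field F] {V : Type*} [AddCommGroup V] [Module F V]
variable {H : HForm F V} {P : PQ H}

/-- generation by the radicals of type IV -/
theorem gen_IV_min {V1 V2 : Submodule F V} (htop : V1 ⊔ V2 = ⊤)
    (h12 : ∀ m ∈ V1, ∀ v ∈ V2, H.h m v = 0)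
    (hlam : ∀ c, P.ok 0 c → ∃ m, c = m - H.ε⁻¹ * H.σ m)
    {ι : Type} (T : ι → Submodule F V)
    (hT2 : ∀ i, T i ≤ V2) (hTs : ∀ i, ∀ u ∈ T i, P.ok u 0)
    (hTT : ∀ i, ∀ u ∈ T i, ∀ u' ∈ T i, H.h u u' = 0) (hspan : V2 ≤ ⨆ i, T i)
    (hpair : ∃ i, ∃ u ∈ T i, ∃ i', ∃ u' ∈ T i', H.h u u' ≠ 0)
    {a a' : V} (ha : a ∈ V1) (has : P.ok a 0) (ha' : a' ∈ V1) (has' : P.ok a' 0)
    (haa' : H.h a' a ≠ 0) {D : Subgroup (V ≃ₗ[F] V)} (hD : ∀ i, rad P (T i) V1 ≤ D)
    (hVnd : ∀ v : V, P.ok v 0 → v ≠ 0 → ∃ w, H.h v w ≠ 0) : SG P ≤ D := by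
  have hT1 : ∀ i, ∀ u ∈ T i, ∀ w ∈ V1, H.h u w = 0 := fun i u hu w hw =>
    H.orth_symm (h12 w hw u (hT2 i hu))
  obtain ⟨i, u, hu, i', u', hu', huu'⟩ := hpair
  have hRt0 : ∀ b ∈ V1, P.ok b 0 → ∀ i, ∀ u ∈ T i, Rt H D b u := by
    intro b hb hbs i u hu
    have hub : H.h u b = 0 := H.orth_symm (h12 b hb u (hT2 i hu))
    refine Rt.symm (hTT i u hu u hu) (P.iso hbs) hub ?_
    intro s huu hub'
    exact hD i (sie_mem_rad huu hub' hu (V1.smul_mem _ hb) (P.sing_smul hbs s))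
  have hRt : ∀ b ∈ V1, P.ok b 0 → ∀ u ∈ ⋃ i, (T i : Set V), Rt H D u b := by
    intro b hb hbs u hu s huu hub
    rw [Set.mem_iUnion] at hu
    obtain ⟨i, hu⟩ := hu
    exact hD i (sie_mem_rad huu hub hu (V1.smul_mem _ hb) (P.sing_smul hbs s))
  refine radIV_gen (V1 := V1) (V2 := V2) (S := ⋃ i, (T i : Set V)) htop h12 ?_ ?_ ?_ ha
    has ha' has' haa' (hRt a ha has) (hRt a' ha' has') ?_
    (zt_zero_of_comm (h12 a ha u (hT2 i hu)) (h12 a ha u' (hT2 i' hu')) huu'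
      (hRt0 a ha has i u hu) (hRt0 a ha has i' u' hu') hlam)
    (zt_zero_of_comm (h12 a' ha' u (hT2 i hu)) (h12 a' ha' u' (hT2 i' hu')) huu'
      (hRt0 a' ha' has' i u hu) (hRt0 a' ha' has' i' u' hu') hlam) ?_ hVnd
  · intro u hu
    rw [Set.mem_iUnion] at hu
    obtain ⟨i, hu⟩ := hu
    exact hTs i u hu
  · intro u hu
    rw [Set.mem_iUnion] at hu
    obtain ⟨i, hu⟩ := hu
    exact hT2 i hu
  · refine hspan.trans (iSup_le fun i => ?_)
    intro u hu
    exact Submodule.subset_span (Set.mem_iUnion.2 ⟨i, hu⟩)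
  · intro u hu m hm
    rw [Set.mem_iUnion] at hu
    obtain ⟨i, hu⟩ := hu
    obtain ⟨c, hc⟩ := P.ex m
    exact ⟨c, hTT i u hu u hu, hT1 i u hu m hm, hc,
      hD i (sie_mem_rad _ _ hu hm hc)⟩
  · exact ⟨u, Set.mem_iUnion.2 ⟨i, hu⟩, u', Set.mem_iUnion.2 ⟨i', hu'⟩, huu'⟩

/-- **Five radicals**, any four of which generate. -/
theorem sharp_IV_five [Finite V] {r : ℕ} [Fact r.Prime] [CharP F r] {p k : ℕ} (hp : p.Prime)
    {x : V ≃ₗ[F] V} (hxK : x ∈ SG P) (hx : x ^ p ^ k = 1)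
    {V1 V2 : Submodule F V} (htop : V1 ⊔ V2 = ⊤) (h12 : ∀ m ∈ V1, ∀ v ∈ V2, H.h m v = 0)
    (hx1 : ∀ w ∈ V1, x w ∈ V1) (hx2 : ∀ w ∈ V2, x w = w)
    (hsurj : ∀ w ∈ V1, ∃ w' ∈ V1, x w' - w' = w)
    (hlam : ∀ c, P.ok 0 c → ∃ m, c = m - H.ε⁻¹ * H.σ m)
    (T : Fin 5 → Submodule F V)
    (hT2 : ∀ i, T i ≤ V2) (hTs : ∀ i, ∀ u ∈ T i, P.ok u 0)
    (hTT : ∀ i, ∀ u ∈ T i, ∀ u' ∈ T i, H.h u u' = 0)
    (hspan : ∀ i0, ∀ S : Submodule F V, (∀ i, i ≠ i0 → T i ≤ S) → V2 ≤ S)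
    (hnd : ∀ v ∈ V2, v ≠ 0 → ∃ w ∈ V2, H.h v w ≠ 0) (h20 : V2 ≠ ⊥)
    {a a' : V} (ha : a ∈ V1) (has : P.ok a 0) (ha' : a' ∈ V1) (has' : P.ok a' 0)
    (haa' : H.h a' a ≠ 0)
    (hVnd : ∀ v : V, P.ok v 0 → v ≠ 0 → ∃ w, H.h v w ≠ 0)
    {M : ℕ} (hM1 : 3 * p + 1 ≤ M) (hM : ∀ t : ℕ, t ≠ 0 → r ^ t ≡ 1 [MOD p] → M ≤ r ^ t) :
    FprRow (p + 1) 1 p (SG P) := by
  obtain ⟨hxi, hxok, -⟩ := SG_iso hxK
  have hr : r.Prime := Fact.out
  have hT1 : ∀ i, ∀ u ∈ T i, ∀ w ∈ V1, H.h u w = 0 := fun i u hu w hw =>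
    H.orth_symm (h12 w hw u (hT2 i hu))
  have hle : ∀ i, rad P (T i) V1 ≤ SG P := by
    intro i
    apply rad_le
    intro u w c hu hw huT hwW hwc
    exact sie_mem_SG P hu hw (hTs i u huT) hwc
  have hpg : ∀ i, IsPGroup r (rad P (T i) V1) := by
    intro i
    obtain ⟨A, B, hAB, hle⟩ := rad_le_flagU (P₁ := P) (hTT i) (hT1 i)
    exact isPGroup_of_le_flagU (r := r) hAB hle
  have hpair : ∀ i, Pair p 0 x (rad P (T i) V1) := by
    intro i
    obtain ⟨A, B, hAB, hle⟩ := rad_le_flagU (P₁ := P) (hTT i) (hT1 i)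
    refine ⟨nilpotent_of_le_flagU (r := r) hAB hle, ?_, ?_⟩
    · apply mem_normalizer_of_conj
      exact rad_conj hxi hxok (fun u hu => by rw [hx2 u (hT2 i hu)]; exact hu) hx1
    · rw [pow_zero, pow_one]
      exact rad_commFull hxi hxok (fun u hu => hx2 u (hT2 i hu)) hx1 hsurj (hT1 i)
        hlam ⟨a', ha', a, ha, haa'⟩
  obtain ⟨x', hx'⟩ : ∃ x' : SG P, x' = ⟨x, hxK⟩ := ⟨_, rfl⟩
  have hx'p : x' ^ p ^ k = 1 := by rw [hx']; exact Subtype.ext hx
  obtain ⟨n, -, hn⟩ := (Nat.dvd_prime_pow hp).1 (orderOf_dvd_of_pow_eq_one hx'p)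
  intro L hL
  refine ⟨x', ⟨n, hn⟩, ?_⟩
  have key := T3_two (X := SG P ⧸ L) (M := M) (c := 3) (by omega) (x := x') (ι := Fin 5)
    (by simp) (fun i => (rad P (T i) V1).subgroupOf (SG P))
    (fun i => by
      have h8 : IsPGroup r ((rad P (T i) V1).subgroupOf (SG P)) :=
        (hpg i).of_injective (subgroupOfEquivOfLe (hle i)).toMonoidHom
          (subgroupOfEquivOfLe (hle i)).injective
      refine PairM.of_pair hp hr hx'p h8 ?_ hM
      rw [hx']
      exact pair_subgroupOf (hle i) hxK (hpair i))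
    (by
      intro z hz i0
      by_contra hcon
      push Not at hcon
      -- the other four generate
      have hgen : closure ({(⟨x, hxK⟩ : SG P)} ∪
          ⋃ i : {i : Fin 5 // i ≠ i0}, ((rad P (T i) V1).subgroupOf (SG P) : Set (SG P))) = ⊤ := by
        apply closure_subgroupOf_eq_top hxK (R := fun i : {i : Fin 5 // i ≠ i0} => rad P (T i) V1)
          (fun i => hle i)
        have hsp : V2 ≤ ⨆ i : {i : Fin 5 // i ≠ i0}, T i := by
          apply hspan i0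
          intro i hi
          exact le_iSup (fun i : {i : Fin 5 // i ≠ i0} => T i) ⟨i, hi⟩
        have hprs : ∃ i : {i : Fin 5 // i ≠ i0}, ∃ u ∈ T i, ∃ i' : {i : Fin 5 // i ≠ i0},
            ∃ u' ∈ T i', H.h u u' ≠ 0 := by
          by_contra hno
          push Not at hno
          obtain ⟨v, hv, hv0⟩ := (Submodule.ne_bot_iff V2).1 h20
          obtain ⟨w, hw, hvw⟩ := hnd v hv hv0
          apply hvw
          have a1 : ∀ i : {i : Fin 5 // i ≠ i0}, ∀ u ∈ T i, ∀ w ∈ V2, H.h u w = 0 := by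
            intro i u hu w hw
            have h1 : V2 ≤ perp H {u} := by
              apply hspan i0
              intro i' hi' u' hu' y hy
              rw [Set.mem_singleton_iff] at hy
              subst hy
              exact hno ⟨i', hi'⟩ u' hu' i _ hu
            exact H.orth_symm (h1 hw u rfl)
          have h2 : V2 ≤ perp H {w} := by
            apply hspan i0
            intro i hi u hu y hy
            rw [Set.mem_singleton_iff] at hy
            subst hy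
            exact a1 ⟨i, hi⟩ u hu _ hw
          exact h2 hv w rfl
        refine gen_IV_min (V1 := V1) (V2 := V2) htop h12 hlam
          (fun i : {i : Fin 5 // i ≠ i0} => T i) (fun i => hT2 i) (fun i => hTs i)
          (fun i => hTT i) hsp hprs ha has ha' has' haa' ?_ hVnd
        intro i g hg
        apply Subgroup.subset_closure
        right
        rw [Set.mem_iUnion]
        exact ⟨i, hg⟩
      refine eq_empty_of_closure hgen hL (X := SG P ⧸ L) (ω := ((1 : SG P) : SG P ⧸ L))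
        (stabilizer_quotient L) z ?_
      rintro a (ha | ha)
      · rw [Set.mem_singleton_iff] at ha
        rw [ha, ← hx']
        exact hz
      · rw [Set.mem_iUnion] at ha
        obtain ⟨i, hi⟩ := ha
        exact hcon i i.2 hi)
  rw [one_mul]
  set f := Nat.card (fixedBy (SG P ⧸ L) x')
  set N := Nat.card (SG P ⧸ L)
  apply Nat.le_of_mul_le_mul_left _ (by norm_num : 0 < 5)
  calc 5 * ((p + 1) * f) = (5 * p + 5) * f := by ring
    _ ≤ (2 * M + 3) * f := Nat.mul_le_mul_right _ (by omega)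
    _ ≤ 5 * N := key

end

end Cfsg.Agent.H110.Fpr
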